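import Cfsg.Agent.INV.DV.A2
import Cfsg.Agent.CLAS.SLBasic
import Cfsg.Agent.S3784

/-!
Two groups without faithful two-dimensional representations over a division ring of characteristic zero.
-/

set_option autoImplicit false

namespace CL.DV.A

open Module Finset
open scoped MatrixGroups

theorem Good.count {G : Type*} [Group G] [Finite G] {A : Type*} [Ring A] [Algebra ℚ A] {σ : G →* A} (h : Good σ)
    {ι : Type*} [Fintype ι] (j : ι → G) (hj : Function.Injective j) :
    ∑ i, tr (σ (j i)) ^ 2 ≤ (Nat.card G : ℚ) * finrank ℚ A := by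
  have := Fintype.ofFinite G
  rw [Nat.card_eq_fintype_card]
  refine le_trans ?_ h.norm
  calc ∑ i, tr (σ (j i)) ^ 2 = ∑ g ∈ univ.map ⟨j, hj⟩, tr (σ g) ^ 2 := (sum_map _ ⟨j, hj⟩ fun g => tr (σ g) ^ 2).symm
    _ ≤ _ := sum_le_sum_of_subset_of_nonneg (subset_univ _) fun _ _ _ => by positivity

section SL

variable {F : Type*} [Field F]

/-- upper unitriangular matrices -/
def up : Multiplicative F →* SL(2, F) where
  toFun b := ⟨!![1, b.toAdd; 0, 1], by simp [Matrix.det_fin_two]⟩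
  map_one' := Subtype.ext (by simp [Matrix.one_fin_two])
  map_mul' a b := Subtype.ext (by
    show _ = !![1, a.toAdd; 0, 1] * !![1, b.toAdd; 0, 1]
    simp [add_comm])

/-- diagonal matrices -/
def dg : Fˣ →* SL(2, F) where
  toFun a := ⟨!![a, 0; 0, (a⁻¹ : Fˣ)], by simp [Matrix.det_fin_two]⟩
  map_one' := Subtype.ext (by simp [Matrix.one_fin_two])
  map_mul' a b := Subtype.ext (by
    show _ = !![(a : F), 0; 0, (a⁻¹ : Fˣ)] * !![(b : F), 0; 0, (b⁻¹ : Fˣ)]
    simp [mul_comm])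

theorem up_inj : Function.Injective (up : Multiplicative F →* SL(2, F)) := fun _ _ e =>
  congrFun (congrFun (congrArg Subtype.val e) 0) 1

theorem dg_up (a : Fˣ) (b : Multiplicative F) : dg a * up b = up (.ofAdd ((a : F) ^ 2 * b.toAdd)) * dg a :=
  Subtype.ext (by
    show !![(a : F), 0; 0, (a⁻¹ : Fˣ)] * !![1, b.toAdd; 0, 1] =
      !![1, (a : F) ^ 2 * b.toAdd; 0, 1] * !![(a : F), 0; 0, (a⁻¹ : Fˣ)]
    simp
    field_simp)

/-- matrices of trace `t` -/
def el (t : F) (s : F × Fˣ) : SL(2, F) :=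
  ⟨!![s.1, s.2; (s.1 * (t - s.1) - 1) / s.2, t - s.1], by simp [Matrix.det_fin_two]; field_simp; ring⟩

/-- the coefficients of the powers -/
def al {R : Type*} [Ring R] (t : R) : ℕ → R × R
  | 0 => (1, 0)
  | n + 1 => (t * (al t n).1 - (al t n).2, (al t n).1)

theorem el_pow (t : F) (s : F × Fˣ) (n : ℕ) :
    (el t s ^ (n + 1)).1 = (al t n).1 • (el t s).1 - (al t n).2 • (1 : Matrix (Fin 2) (Fin 2) F) := by
  have e : (el t s).1 * (el t s).1 = t • (el t s).1 - 1 := by
    ext i j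
    fin_cases i <;> fin_cases j <;> simp [el, Matrix.mul_apply, Fin.sum_univ_two] <;> field_simp <;> ring
  induction n with
  | zero => simp [al]
  | succ n ih =>
    rw [pow_succ, Matrix.SpecialLinearGroup.coe_mul, ih, sub_mul, smul_mul_assoc, e, smul_mul_assoc, one_mul, al]
    module

theorem el_ext {t : F} {s s' : F × Fˣ} {k k' : ℕ} (e : el t s ^ (k + 1) = el t s' ^ (k' + 1)) :
    t * (al t k).1 - 2 * (al t k).2 = t * (al t k').1 - 2 * (al t k').2 ∧ (k = k' → (al t k).1 ≠ 0 → s = s') := by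
  have e' := congrArg Subtype.val e
  rw [el_pow, el_pow] at e'
  have a := congrFun (congrFun e' 0) 0
  have b := congrFun (congrFun e' 0) 1
  have c := congrFun (congrFun e' 1) 1
  simp [el] at a b c
  refine ⟨by linear_combination a + c, ?_⟩
  rintro rfl k0
  exact Prod.ext (mul_left_cancel₀ k0 (by linear_combination a)) (Units.ext (mul_left_cancel₀ k0 b))

variable {A : Type*} [Ring A] [Algebra ℚ A] {σ : SL(2, F) →* A} (h : Good σ) (h1 : σ (up (.ofAdd 1)) ≠ 1)
include h h1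

theorem two_pow [Fintype F] {r : ℕ} (hr : r.Prime) (hd : r ∣ Fintype.card F - 1) : r = 2 := by
  classical
  by_contra r2
  have := Fact.mk hr
  obtain ⟨a, ha⟩ := exists_prime_orderOf_dvd_card (G := Fˣ) r (by rwa [Fintype.card_units])
  refine h1 (h.frob up.range (y := dg a) (r := r) (by have := hr.two_le; omega)
    (by rw [← map_pow, ← ha, pow_orderOf_eq_one, map_one]) ?_ ?_ _ ⟨_, rfl⟩)
  · rintro _ ⟨b, rfl⟩
    exact ⟨_, by rw [dg_up, mul_inv_cancel_right]⟩
  · rintro k k0 kr _ ⟨b, rfl⟩ c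
    rw [← map_pow, Commute, SemiconjBy, dg_up, mul_left_inj] at c
    have e : ((a ^ k : Fˣ) : F) ^ 2 * b.toAdd = b.toAdd := congrArg Multiplicative.toAdd (up_inj c)
    by_cases b0 : b.toAdd = 0
    · rw [show b = 1 from b0, map_one]
    have e' : a ^ (k * 2) = 1 := Units.ext (by
      rw [pow_mul, Units.val_pow_eq_pow_val]
      exact mul_right_cancel₀ b0 (e.trans (one_mul _).symm))
    rw [← orderOf_dvd_iff_pow_eq_one, ha, hr.dvd_mul] at e'
    rcases e' with e' | e'
    · exact absurd (Nat.le_of_dvd k0 e') (by omega)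
    · exact absurd ((Nat.prime_dvd_prime_iff_eq hr Nat.prime_two).1 e') r2

end SL

section Prime

variable {p : ℕ} [hp : Fact p.Prime] {A : Type*} [Ring A] [Algebra ℚ A] {σ : SL(2, ZMod p) →* A} (h : Good σ)
  (h1 : σ (up (.ofAdd 1)) ≠ 1)
include h h1

theorem dim_ge {m : ℕ} (hm : p = 2 * m + 1) : 2 * m * m ≤ finrank ℚ A := by
  have := h.fd
  have pw : ∀ n : ℕ, σ (up (.ofAdd (1 : ZMod p))) ^ n = σ (up (.ofAdd n)) := fun n => by
    rw [← map_pow, ← map_pow, ← ofAdd_nsmul, nsmul_one]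
  have nz : ∀ n, 0 < n → n < p → (n : ZMod p) ≠ 0 := fun n a b e =>
    absurd (Nat.le_of_dvd a ((ZMod.natCast_eq_zero_iff _ _).1 e)) (by omega)
  have := dim_le (p := p) (u := σ (up (.ofAdd 1))) (by rw [pw, ZMod.natCast_self, ofAdd_zero, map_one, map_one]) h1
    (ι := Fin m) (fun i => σ.toHomUnits (dg (Units.mk0 ((i.1 + 1 : ℕ) : ZMod p) (nz _ (by omega) (by omega)))))
    (fun i => (((i.1 + 1 : ℕ) : ZMod p) ^ 2).val) (fun i j e => by
      rcases sq_eq_sq_iff_eq_or_eq_neg.1 (ZMod.val_injective p e) with e | e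
      · have := congrArg ZMod.val e
        rw [ZMod.val_cast_of_lt (by omega), ZMod.val_cast_of_lt (by omega)] at this
        exact Fin.ext (by omega)
      · exact absurd (by rw [Nat.cast_add, e, neg_add_cancel]) (nz (i.1 + 1 + (j.1 + 1)) (by omega) (by omega)))
    (fun i => ZMod.val_lt _) fun i => by
      rw [pw, MonoidHom.coe_toHomUnits, ← map_mul, ← map_mul, dg_up]
      simp
  rwa [Fintype.card_fin, show p - 1 = 2 * m by omega] at this

theorem le_sixteen {m : ℕ} (hm : p = 2 * m + 1) : m ≤ 16 := by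
  have a := dim_ge h h1 hm
  have b := h.count (el (-1 : ZMod p)) fun s s' e =>
    (el_ext (k := 0) (k' := 0) (by rw [zero_add, pow_one, pow_one, e])).2 rfl one_ne_zero
  have c : ∑ _ : ZMod p × (ZMod p)ˣ, (finrank ℚ A : ℚ) ^ 2 ≤ ∑ s, 16 * tr (σ (el (-1 : ZMod p) s)) ^ 2 :=
    sum_le_sum fun s _ => h.three' (Subtype.ext (by rw [el_pow]; simp [al]))
  rw [sum_const, card_univ, Fintype.card_prod, ZMod.card_units, ZMod.card, ← mul_sum, nsmul_eq_mul] at c
  rw [CL.SL.card_SL_two, Nat.card_zmod, show p ^ 2 - 1 = 2 * m * (2 * m + 2) by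
    rw [hm]; exact Nat.sub_eq_of_eq_add (by ring)] at b
  rw [show p - 1 = 2 * m by omega] at c
  by_contra k
  have k' : (17 : ℚ) ≤ m := by exact_mod_cast (by omega : 17 ≤ m)
  have a' : (2 * m * m : ℚ) ≤ finrank ℚ A := by exact_mod_cast a
  have p0 : (0 : ℚ) < p := by exact_mod_cast hp.out.pos
  push_cast at b c
  generalize (finrank ℚ A : ℚ) = n at *
  have n0 : 0 < n := by nlinarith
  have d : p * (2 * m) * n * n ≤ p * (2 * m) * n * (16 * (2 * m + 2)) := by nlinarith
  have e := le_of_mul_le_mul_left d (by positivity)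
  nlinarith

end Prime

instance fact17 : Fact (Nat.Prime 17) := ⟨by norm_num⟩

theorem not_seventeen {A : Type*} [Ring A] [Algebra ℚ A] {σ : SL(2, ZMod 17) →* A}
    (h : Good σ) (h1 : σ (up (.ofAdd 1)) ≠ 1) : False := by
  have a := dim_ge h h1 (m := 8) rfl
  have i1 : ∀ k k' : Fin 4, 7 * (al (7 : ZMod 17) k).1 - 2 * (al 7 k).2 = 7 * (al 7 k').1 - 2 * (al 7 k').2 →
    k = k' := by decide
  have i2 : ∀ k : Fin 4, (al (7 : ZMod 17) k).1 ≠ 0 := by decide
  have i3 : al (7 : ZMod 17) 8 = (0, -1) := by decide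
  have b := h.count (fun s : (ZMod 17 × (ZMod 17)ˣ) × Fin 4 => el (7 : ZMod 17) s.1 ^ (s.2.1 + 1)) fun s s' e => by
    obtain ⟨e1, e2⟩ := el_ext e
    have := i1 _ _ e1
    exact Prod.ext (e2 (congrArg Fin.val this) (i2 _)) this
  have c : ∑ _ : ZMod 17 × (ZMod 17)ˣ, (finrank ℚ A : ℚ) ^ 2 ≤
      ∑ s, 4 * ∑ k : Fin 4, tr (σ (el (7 : ZMod 17) s ^ (k.1 + 1))) ^ 2 :=
    sum_le_sum fun s _ => h.nine (Subtype.ext (by rw [el_pow, i3]; simp))
  rw [sum_const, card_univ, Fintype.card_prod, ZMod.card_units, ZMod.card, ← mul_sum, nsmul_eq_mul] at c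
  rw [CL.SL.card_SL_two, Nat.card_zmod, Fintype.sum_prod_type] at b
  have a' : (128 : ℚ) ≤ finrank ℚ A := by exact_mod_cast a
  norm_num at b c
  nlinarith

variable {D : Type*} [DivisionRing D] [CharZero D] {V : Type*} [AddCommGroup V] [Module D V]
  (hV : Module.finrank D V = 2)
include hV

set_option linter.unusedVariables false in
theorem sl2 {F : Type} [Field F] [Fintype F] (hodd : Odd (Fintype.card F)) (h3 : 3 < Fintype.card F)
    (rho : Matrix.SpecialLinearGroup (Fin 2) F →* Module.End D V) (hrho : Function.Injective rho) :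
    Fintype.card F = 5 ∨ Fintype.card F = 9 := by
  have ne : ∀ (K : Type) [Field K], (up (.ofAdd 1) : SL(2, K)) ≠ 1 := fun K _ e =>
    one_ne_zero (α := K) (up_inj (e.trans (map_one up).symm))
  obtain ⟨A, _, _, σ, h, h1⟩ := sep ⟨hrho, hV⟩ (ne F)
  have e := Nat.eq_prime_pow_of_unique_prime_dvd (p := 2) (n := Fintype.card F - 1) (by omega) (two_pow h h1)
  generalize (Fintype.card F - 1).primeFactorsList.length = b at e
  obtain ⟨p, _, n, hp, hn⟩ := FiniteField.card' F
  have b2 : 2 ≤ b := by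
    rcases b with _ | _ | b <;> omega
  rcases Cfsg.Agent.S3784.result p 2 n b hp Nat.prime_two n.2 (by omega) (by omega) with k | ⟨-, k, ⟨m, km⟩, kp⟩ | k
  · omega
  · rw [k, pow_one] at hn
    by_contra c
    have := Fact.mk hp
    let f := (ZMod.ringEquivOfPrime F hp hn).toRingHom
    obtain ⟨A, _, _, σ, h, h1⟩ := sep (ρ := rho.comp (Matrix.SpecialLinearGroup.map f)) ⟨hrho.comp fun x y e => by
      ext i j
      exact f.injective (congrFun (congrFun (congrArg Subtype.val e) i) j), hV⟩ (ne (ZMod p))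
    obtain ⟨b, rfl⟩ := Nat.exists_eq_add_of_le' (by omega : 1 ≤ b)
    have l := le_sixteen h h1 (m := 2 ^ b) (by rw [kp]; ring)
    have l' : b ≤ 4 := (Nat.pow_le_pow_iff_right (by norm_num)).1 (l.trans_eq (by norm_num : 16 = 2 ^ 4))
    have b1 : 1 ≤ b := by omega
    interval_cases b
    · omega
    · exact absurd hp (by rw [kp]; norm_num)
    · obtain rfl : p = 17 := kp
      exact not_seventeen h h1
    · exact absurd hp (by rw [kp]; norm_num)
  · omega

theorem h73 {G : Type*} [Group G] [Finite G] (rho : G →* Module.End D V) (hrho : Function.Injective rho) (x y : G)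
    (hx : x ^ 7 = 1) (hy : y ^ 3 = 1) (h : y * x * y⁻¹ = x ^ 2) : x = 1 := by
  by_contra x1
  obtain ⟨A, _, _, σ, g, h1⟩ := sep ⟨hrho, hV⟩ x1
  have c : ∀ n : ℤ, y * x ^ n * y⁻¹ = (x ^ n) ^ 2 := fun n => by
    rw [← conj_zpow, h, ← zpow_natCast, ← zpow_natCast, ← zpow_mul, ← zpow_mul, mul_comm]
  refine h1 (g.frob (Subgroup.zpowers x) le_rfl hy ?_ ?_ x (Subgroup.mem_zpowers x))
  · rintro _ ⟨n, rfl⟩
    rw [c n]
    exact Subgroup.pow_mem _ (Subgroup.zpow_mem_zpowers x n) 2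
  · rintro k k0 k3 _ ⟨n, rfl⟩ e
    have c1 := c n
    have x7 : (x ^ n) ^ 7 = 1 := by rw [← zpow_natCast, ← zpow_mul, mul_comm, zpow_mul, zpow_natCast, hx, one_zpow]
    beta_reduce at e ⊢
    generalize x ^ n = u at *
    interval_cases k
    · rw [pow_one] at e
      rw [e.eq, mul_inv_cancel_right, sq] at c1
      exact left_eq_mul.1 c1
    · have e2 : y ^ 2 * u * (y ^ 2)⁻¹ = u ^ 4 := by
        calc y ^ 2 * u * (y ^ 2)⁻¹ = y * (y * u * y⁻¹) * y⁻¹ := by rw [sq]; group
          _ = _ := by rw [c1, ← conj_pow, c1, ← pow_mul]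
      rw [e.eq, mul_inv_cancel_right] at e2
      have e3 : u ^ 3 = 1 := mul_right_cancel (b := u) (by rw [← pow_succ, ← e2, one_mul])
      rw [← x7, pow_succ, show u ^ 6 = (u ^ 3) ^ 2 by rw [← pow_mul], e3, one_pow, one_mul]

end CL.DV.A
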