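import Mathlib
import Cfsg.Agent.CHAR.Eigen

/-!
Rational algebras spanned by a finite group, all of whose idempotents have trace `0`, `n / 2` or `n`
in the regular representation.
-/

set_option autoImplicit false

namespace CL.DV.A

open Module Finset

variable {G : Type*} [Group G] {A : Type*} [Ring A] [Algebra ℚ A]

/-- the trace of the left multiplication -/
noncomputable def tr : A →ₗ[ℚ] ℚ := LinearMap.trace ℚ A ∘ₗ (Algebra.lmul ℚ A).toLinearMap

theorem tr_apply (a : A) : tr a = LinearMap.trace ℚ A (Algebra.lmul ℚ A a) := rfl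

theorem tr_comm (a b : A) : tr (a * b) = tr (b * a) := by
  rw [tr_apply, tr_apply, map_mul (Algebra.lmul ℚ A), map_mul (Algebra.lmul ℚ A), LinearMap.trace_mul_comm]

theorem tr_one [Module.Finite ℚ A] : tr (1 : A) = finrank ℚ A := by
  rw [tr_apply, map_one, LinearMap.trace_one]

theorem tr_idem [Module.Finite ℚ A] {e : A} (he : IsIdempotentElem e) :
    tr e = finrank ℚ (LinearMap.range (Algebra.lmul ℚ A e)) :=
  (LinearMap.IsIdempotentElem.isProj_range _ (he.map (Algebra.lmul ℚ A))).trace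

theorem eq_zero_of_tr [Module.Finite ℚ A] {e : A} (he : IsIdempotentElem e) (h : tr e = 0) : e = 0 := by
  have := LinearMap.IsIdempotentElem.eq_zero_of_trace_eq_zero (he.map (Algebra.lmul ℚ A)) h
  simpa using LinearMap.congr_fun this 1

/-- the hypothesis on the algebra -/
structure Good (σ : G →* A) : Prop where
  fd : Module.Finite ℚ A
  span : Submodule.span ℚ (Set.range σ) = ⊤
  idem : ∀ e : A, IsIdempotentElem e → e = 0 ∨ e = 1 ∨ 2 * tr e = finrank ℚ A

/-- the average of a finite family -/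
noncomputable def av {ι : Type*} [Fintype ι] (a : ι → A) : A := (Fintype.card ι : ℚ)⁻¹ • ∑ i, a i

theorem av_idem {H : Type*} [Group H] [Fintype H] (σ : H →* A) :
    (∀ h, σ h * av σ = av σ) ∧ (∀ h, av σ * σ h = av σ) ∧ IsIdempotentElem (av σ) := by
  have a : ∀ h, σ h * av σ = av σ := fun h => by
    rw [av, mul_smul_comm, mul_sum]
    congr 1
    exact Fintype.sum_equiv (Equiv.mulLeft h) _ _ fun x => by simp
  refine ⟨a, fun h => ?_, ?_⟩
  · rw [av, smul_mul_assoc, sum_mul]
    congr 1
    exact Fintype.sum_equiv (Equiv.mulRight h) _ _ fun x => by simp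
  · rw [IsIdempotentElem]
    nth_rw 1 [av]
    rw [smul_mul_assoc, sum_mul, sum_congr rfl fun h _ => a h, sum_const, card_univ, ← Nat.cast_smul_eq_nsmul ℚ,
      smul_smul, inv_mul_cancel₀ (Nat.cast_ne_zero.2 Fintype.card_ne_zero), one_smul]

/-- the average of the powers of an element killed by `r`, relative to a commuting idempotent -/
theorem pw_idem {r : ℕ} (hr : r ≠ 0) {y f : A} (hy : y ^ r = 1) (hf : IsIdempotentElem f) (c : Commute y f) :
    IsIdempotentElem ((r : ℚ)⁻¹ • ∑ k ∈ range r, y ^ k * f) := by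
  have a : y * ∑ k ∈ range r, y ^ k = ∑ k ∈ range r, y ^ k := by
    have := mul_geom_sum y r
    rw [hy, sub_self, sub_mul, one_mul, sub_eq_zero] at this
    exact this
  have b : ∀ j, y ^ j * ∑ k ∈ range r, y ^ k = ∑ k ∈ range r, y ^ k := fun j => by
    induction j with
    | zero => simp
    | succ j ih => rw [pow_succ, mul_assoc, a, ih]
  have d : Commute (∑ k ∈ range r, y ^ k) f := Commute.sum_left _ _ _ fun k _ => c.pow_left k
  rw [← sum_mul, IsIdempotentElem, smul_mul_smul_comm, mul_assoc, ← mul_assoc f, ← d.eq, mul_assoc _ f f, hf.eq,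
    ← mul_assoc]
  nth_rw 1 [sum_mul]
  rw [sum_congr rfl fun j _ => b j, sum_const, card_range, ← Nat.cast_smul_eq_nsmul ℚ, smul_mul_assoc, smul_smul,
    mul_assoc, inv_mul_cancel₀ (Nat.cast_ne_zero.2 hr), mul_one]

namespace Good

variable {σ : G →* A} (h : Good σ)
include h

theorem tri {e : A} (he : IsIdempotentElem e) :
    tr e = 0 ∨ tr e = finrank ℚ A ∨ 2 * tr e = finrank ℚ A := by
  have := h.fd
  rcases h.idem e he with rfl | rfl | k
  · exact .inl (map_zero _)
  · exact .inr (.inl tr_one)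
  · exact .inr (.inr k)

theorem tr_inv [Finite G] (g : G) : tr (σ g⁻¹) = tr (σ g) := by
  have := h.fd
  let ρ : Representation ℂ G (TensorProduct ℚ ℂ A) :=
    ((Module.End.baseChangeHom ℚ ℂ A).comp (Algebra.lmul ℚ A)).toRingHom.toMonoidHom.comp σ
  have e : ∀ g, ρ.character g = (tr (σ g) : ℂ) := fun g =>
    LinearMap.trace_baseChange (Algebra.lmul ℚ A (σ g)) ℂ
  have k := CL.Char.character_inv ρ g
  rw [e, e, map_ratCast] at k
  exact_mod_cast k

theorem norm [Fintype G] : ∑ g, tr (σ g) ^ 2 ≤ (Fintype.card G : ℚ) * finrank ℚ A := by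
  have := h.fd
  let ρ : Representation ℚ G A := (Algebra.lmul ℚ A).toRingHom.toMonoidHom.comp σ
  have c : (Nat.card G : ℚ) ≠ 0 := Nat.cast_ne_zero.2 Nat.card_pos.ne'
  let := invertibleOfNonzero c
  have k := Representation.card_inv_mul_sum_char_mul_char_eq_finrank ρ ρ
  have e : ∀ g, ρ.character g = tr (σ g) := fun g => rfl
  simp only [e, h.tr_inv, ← sq] at k
  rw [inv_mul_eq_iff_eq_mul₀ c, Nat.card_eq_fintype_card] at k
  rw [k]
  let ev : Representation.IntertwiningMap ρ ρ →ₗ[ℚ] A :=
    { toFun := fun φ => φ 1, map_add' := fun _ _ => rfl, map_smul' := fun _ _ => rfl }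
  have i : Function.Injective ev := fun φ ψ he => by
    have : φ.toLinearMap = ψ.toLinearMap := LinearMap.ext_on_range h.span fun g => by
      have a := φ.isIntertwining _ _ g 1
      have b := ψ.isIntertwining _ _ g 1
      have d : ρ g 1 = σ g := mul_one _
      rw [d] at a b
      exact a.trans ((congrArg (ρ g) he).trans b.symm)
    exact Representation.IntertwiningMap.ext this
  exact mul_le_mul_of_nonneg_left (by exact_mod_cast LinearMap.finrank_le_finrank_of_injective i) (by positivity)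

/-- the Frobenius argument -/
theorem frob [Finite G] (U : Subgroup G) {y : G} {r : ℕ} (hr : 3 ≤ r) (hy : y ^ r = 1)
    (hn : ∀ u ∈ U, y * u * y⁻¹ ∈ U) (hf : ∀ k, 0 < k → k < r → ∀ u ∈ U, Commute (y ^ k) u → u = 1) :
    ∀ u ∈ U, σ u = 1 := by
  have := h.fd
  have := Fintype.ofFinite U
  obtain ⟨a1, a2, a3⟩ := av_idem (σ.comp U.subtype)
  set e := av (σ.comp U.subtype) with he
  have hn' : ∀ k, ∀ u ∈ U, y ^ k * u * (y ^ k)⁻¹ ∈ U := fun k => by
    induction k with
    | zero => simp
    | succ k ih =>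
      intro u hu
      have := hn _ (ih u hu)
      convert this using 1
      rw [pow_succ']; group
  have c : Commute (σ y) e := by
    rw [Commute, SemiconjBy, he, av, mul_smul_comm, smul_mul_assoc, mul_sum, sum_mul]
    congr 1
    let j : U → U := fun u => ⟨_, hn u u.2⟩
    refine Fintype.sum_bijective j (Finite.injective_iff_bijective.1 fun u v huv => ?_) _ _ fun u => ?_
    · simpa [j] using huv
    · simp [j, ← map_mul]
  have c' : Commute (σ y) (1 - e) := (Commute.one_right _).sub_right c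
  have z : ∀ k, 0 < k → k < r → tr (σ y ^ k * (1 - e)) = 0 := fun k k0 kr => by
    rw [← map_pow]
    let j : U → U := fun u => u * ⟨_, hn' k _ u⁻¹.2⟩
    have jb : Function.Bijective j := Finite.injective_iff_bijective.1 fun u v huv => by
      have e1 : (u : G) * (y ^ k * (u : G)⁻¹ * (y ^ k)⁻¹) = v * (y ^ k * (v : G)⁻¹ * (y ^ k)⁻¹) :=
        congrArg Subtype.val huv
      have := hf k k0 kr _ (v⁻¹ * u).2 (by
        show y ^ k * ((v : G)⁻¹ * u) = (v : G)⁻¹ * u * y ^ k
        calc y ^ k * ((v : G)⁻¹ * u) = (v : G)⁻¹ * (v * (y ^ k * (v : G)⁻¹ * (y ^ k)⁻¹)) * y ^ k * u := by group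
          _ = _ := by rw [← e1]; group)
      exact (inv_mul_eq_one.1 (Subtype.ext this)).symm
    have t : ∀ u : U, tr (σ (j u) * (σ (y ^ k) * (1 - e))) = tr (σ (y ^ k) * (1 - e)) := fun u => by
      have e1 : σ (j u) * σ (y ^ k) = σ u * (σ (y ^ k) * σ (u⁻¹ : U)) := by
        simp only [← map_mul]
        congr 1
        simp [j, mul_assoc]
      have e2 : σ (u⁻¹ : U) * ((1 - e) * σ u) = 1 - e := by
        have b1 : σ (u⁻¹ : U) * e = e := a1 u⁻¹
        have b2 : e * σ u = e := a2 u
        rw [sub_mul, b2, one_mul, mul_sub, b1, ← map_mul]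
        simp
      rw [← mul_assoc, e1, mul_assoc, tr_comm, mul_assoc, mul_assoc, e2]
    have s : ∑ u : U, tr (σ (j u) * (σ (y ^ k) * (1 - e))) = 0 := by
      rw [Fintype.sum_bijective j jb _ (fun u : U => tr (σ u * (σ (y ^ k) * (1 - e)))) fun _ => rfl, ← map_sum,
        ← sum_mul]
      have e1 : ∑ u : U, σ u = (Fintype.card U : ℚ) • e := by
        rw [he, av, smul_smul, mul_inv_cancel₀ (Nat.cast_ne_zero.2 Fintype.card_ne_zero), one_smul]
        rfl
      rw [e1, smul_mul_assoc, map_smul, tr_comm, mul_assoc, sub_mul, a3.eq, one_mul, sub_self, mul_zero, map_zero,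
        smul_zero]
    rw [sum_congr rfl fun u _ => t u, sum_const, card_univ, nsmul_eq_mul] at s
    exact (mul_eq_zero.1 s).resolve_left (Nat.cast_ne_zero.2 Fintype.card_ne_zero)
  have r0 : r ≠ 0 := by omega
  have i := pw_idem r0 (y := σ y) (by rw [← map_pow, hy, map_one]) a3.one_sub c'
  have t : tr ((r : ℚ)⁻¹ • ∑ k ∈ range r, σ y ^ k * (1 - e)) = (r : ℚ)⁻¹ * tr (1 - e) := by
    rw [map_smul, map_sum, sum_eq_single 0 (fun k hk k0 => z k (by omega) (mem_range.1 hk))
      fun k => absurd (mem_range.2 (by omega)) k]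
    simp
  have t1 := h.tri i
  have t2 := h.tri a3.one_sub
  rw [t] at t1
  have r3 : (3 : ℚ) ≤ r := by exact_mod_cast hr
  have n0 : (0 : ℚ) ≤ finrank ℚ A := by positivity
  have : tr (1 - e) = 0 := by
    have e1 : tr (1 - e) = r * ((r : ℚ)⁻¹ * tr (1 - e)) := by
      rw [← mul_assoc, mul_inv_cancel₀ (by positivity), one_mul]
    generalize (r : ℚ)⁻¹ * tr (1 - e) = w at t1 e1
    rcases t1 with t1 | t1 | t1 <;> rcases t2 with t2 | t2 | t2 <;> nlinarith
  have e1 : e = 1 := (sub_eq_zero.1 (eq_zero_of_tr a3.one_sub this)).symm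
  intro u hu
  have := a1 ⟨u, hu⟩
  rwa [e1, mul_one] at this

theorem three [Finite G] {x : G} (hx : x ^ 3 = 1) :
    2 * tr (σ x) = -finrank ℚ A ∨ tr (σ x) = finrank ℚ A ∨ 4 * tr (σ x) = finrank ℚ A := by
  have := h.fd
  have i := h.tri (pw_idem three_ne_zero (y := σ x) (by rw [← map_pow, hx, map_one]) .one (Commute.one_right _))
  have e : x ^ 2 = x⁻¹ := eq_inv_of_mul_eq_one_left (by rw [← pow_succ, hx])
  simp only [sum_range_succ, range_zero, sum_empty, mul_one, ← map_pow, map_smul, map_add, e, h.tr_inv, pow_zero,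
    pow_one, map_one, tr_one, map_zero, smul_eq_mul] at i
  rcases i with i | i | i
  · left; push_cast at i; linarith
  · right; left; push_cast at i; linarith
  · right; right; push_cast at i; linarith

theorem three' [Finite G] {x : G} (hx : x ^ 3 = 1) : (finrank ℚ A : ℚ) ^ 2 ≤ 16 * tr (σ x) ^ 2 := by
  rcases h.three hx with i | i | i <;> nlinarith [sq_nonneg (tr (σ x))]

theorem nine [Finite G] {y : G} (hy : y ^ 9 = 1) :
    (finrank ℚ A : ℚ) ^ 2 ≤ 4 * ∑ k : Fin 4, tr (σ (y ^ (k.1 + 1))) ^ 2 := by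
  have := h.fd
  have i := h.tri (pw_idem (r := 9) (by norm_num) (y := σ y) (by rw [← map_pow, hy, map_one]) .one
    (Commute.one_right _))
  have e : ∀ a b, a + b = 9 → y ^ a = (y ^ b)⁻¹ := fun a b k =>
    eq_inv_of_mul_eq_one_left (by rw [← pow_add, k, hy])
  simp only [sum_range_succ, range_zero, sum_empty, mul_one, ← map_pow, map_smul, map_add, e 5 4 rfl, e 6 3 rfl,
    e 7 2 rfl, e 8 1 rfl, h.tr_inv, pow_zero, map_one, tr_one, map_zero, smul_eq_mul] at i
  have j := h.three (x := y ^ 3) (by rw [← pow_mul, hy])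
  simp only [Fin.sum_univ_four]
  show _ ≤ 4 * (tr (σ (y ^ 1)) ^ 2 + tr (σ (y ^ 2)) ^ 2 + tr (σ (y ^ 3)) ^ 2 + tr (σ (y ^ 4)) ^ 2)
  generalize tr (σ (y ^ 1)) = a at *
  generalize tr (σ (y ^ 2)) = b at *
  generalize tr (σ (y ^ 3)) = c at *
  generalize tr (σ (y ^ 4)) = d at *
  generalize (finrank ℚ A : ℚ) = n at *
  have k : (a + b + d) ^ 2 ≤ 3 * (a ^ 2 + b ^ 2 + d ^ 2) := by
    nlinarith [sq_nonneg (a - b), sq_nonneg (a - d), sq_nonneg (b - d)]
  push_cast at i
  rcases j with j | j | j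
  · have : n = -2 * c := by linarith
    subst this
    nlinarith [sq_nonneg a, sq_nonneg b, sq_nonneg d]
  · subst j
    nlinarith [sq_nonneg a, sq_nonneg b, sq_nonneg d, sq_nonneg c]
  · subst j
    rcases i with i | i | i
    · have : a + b + d = -3 * c := by linarith
      rw [this] at k
      nlinarith
    · have : a + b + d = 15 * c := by linarith
      rw [this] at k
      nlinarith [sq_nonneg c]
    · have : a + b + d = 6 * c := by linarith
      rw [this] at k
      nlinarith [sq_nonneg c]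

end Good

end CL.DV.A
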