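import Mathlib
import Cfsg.Agent.S4294
import Cfsg.Agent.PERM.FCStruct
import Cfsg.Agent.TECH.Conj

/-!
Finite groups acting faithfully on a two-dimensional space over a division ring: lines.
-/

set_option autoImplicit false

namespace CL.DV

open Subgroup CL.FC CL.MSS Module

universe v

variable {G : Type v} [Group G]

/-- `L / (L ⊓ K)` is a finite subgroup of a division ring, as far as we need it -/
def FQ (L K : Subgroup G) : Prop :=
  ∃ (Y : Type v) (_ : Group Y) (_ : Finite Y) (π : L →* Y), Function.Surjective π ∧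
    (∀ x : L, π x = 1 ↔ (x : G) ∈ K) ∧ IsFPF Y ∧
      (Group.IsSolvable Y ∨ Nonempty (Y ≃* Matrix.SpecialLinearGroup (Fin 2) (ZMod 5)))

theorem fq_of_hom [Finite G] {E : Type*} [DivisionRing E] {L K : Subgroup G} (f : L →* Eˣ)
    (hf : ∀ x : L, f x = 1 ↔ (x : G) ∈ K) : FQ L K := by
  have e := QuotientGroup.quotientKerEquivRange f
  refine ⟨L ⧸ f.ker, inferInstance, inferInstance, QuotientGroup.mk' _, QuotientGroup.mk'_surjective _,
    fun x => (QuotientGroup.eq_one_iff x).trans (hf x), isFPF_of_divisionRing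
      ((Units.coeHom E).comp (f.range.subtype.comp e.toMonoidHom))
      (Units.val_injective.comp (f.range.subtype_injective.comp e.injective)), ?_⟩
  have : Finite f.range := Finite.of_equiv _ e.toEquiv
  by_cases hs : Group.IsSolvable f.range
  · exact Or.inl (solvable_of_surjective (f := e.symm.toMonoidHom) e.symm.surjective)
  · obtain ⟨a⟩ := Cfsg.Agent.S4294.result f.range hs
    exact Or.inr ⟨e.trans a⟩

variable {D : Type*} [DivisionRing D] {V : Type*} [AddCommGroup V] [Module D V]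

/-- a faithful action on a two-dimensional space -/
structure Rep (ρ : G →* End D V) : Prop where
  inj : Function.Injective ρ
  rk : finrank D V = 2

variable (ρ : G →* End D V)

/-- the pointwise stabiliser -/
def Pt (W : Submodule D V) : Subgroup G where
  carrier := {g | ∀ w ∈ W, ρ g w = w}
  one_mem' := fun w _ => by simp
  mul_mem' := fun {a b} ha hb w hw => by rw [map_mul, End.mul_apply, hb w hw, ha w hw]
  inv_mem' := fun {a} ha w hw => by
    conv_lhs => rw [← ha w hw]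
    rw [← End.mul_apply, ← map_mul, inv_mul_cancel, map_one, End.one_apply]

/-- `L` stabilises `W` -/
def Inv (L : Subgroup G) (W : Submodule D V) : Prop := ∀ g ∈ L, ∀ w ∈ W, ρ g w ∈ W

/-- the fixed space of an element -/
def Fx (g : G) : Submodule D V := LinearMap.ker (ρ g - 1)

/-- no invariant line -/
def Irr : Prop := ∀ W : Submodule D V, Inv ρ ⊤ W → W = ⊥ ∨ W = ⊤

variable {ρ}

theorem mem_Fx {g : G} {w : V} : w ∈ Fx ρ g ↔ ρ g w = w := by
  rw [Fx, LinearMap.mem_ker, LinearMap.sub_apply, sub_eq_zero, End.one_apply]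

theorem mem_Pt {g : G} {W : Submodule D V} : g ∈ Pt ρ W ↔ ∀ w ∈ W, ρ g w = w := Iff.rfl

theorem app_mul (a b : G) (w : V) : ρ (a * b) w = ρ a (ρ b w) := by rw [map_mul, End.mul_apply]

theorem app_inv (a : G) (w : V) : ρ a⁻¹ (ρ a w) = w := by
  rw [← app_mul, inv_mul_cancel, map_one, End.one_apply]

theorem app_inv' (a : G) (w : V) : ρ a (ρ a⁻¹ w) = w := by simp [← app_mul]

namespace Rep

variable (h : Rep ρ)
include h

theorem fd : FiniteDimensional D V := Module.finite_of_finrank_pos (h.rk ▸ two_pos)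

theorem comp {H : Type v} [Group H] (f : H →* G) (hf : Function.Injective f) : Rep (ρ.comp f) :=
  ⟨h.inj.comp hf, h.rk⟩

theorem rk1 {W : Submodule D V} (h1 : W ≠ ⊥) (h2 : W ≠ ⊤) : finrank D W = 1 := by
  have := h.fd
  have a := Submodule.finrank_lt h2
  have b : finrank D W ≠ 0 := fun e => h1 (Submodule.finrank_eq_zero.1 e)
  rw [h.rk] at a
  omega

theorem span {W : Submodule D V} (h2 : W ≠ ⊤) {u w : V} (hu : u ∈ W) (u0 : u ≠ 0) (hw : w ∈ W) :
    ∃ d : D, d • u = w := by
  obtain ⟨d, e⟩ := (finrank_eq_one_iff_of_nonzero' (⟨u, hu⟩ : W) fun e => u0 (congrArg Subtype.val e)).1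
    (h.rk1 (fun e => u0 (by simpa [e] using hu)) h2) ⟨w, hw⟩
  exact ⟨d, congrArg Subtype.val e⟩

theorem eq_zero_of {W : Submodule D V} (h2 : W ≠ ⊤) {a : End D V} {u w : V} (hu : u ∈ W) (hw : w ∈ W)
    (k : a u ≠ 0) (l : a w = 0) : w = 0 := by
  by_contra w0
  obtain ⟨d, rfl⟩ := h.span h2 hw w0 hu
  exact k (by rw [map_smul, l, smul_zero])

theorem Fx_ne_top {g : G} (hg : g ≠ 1) : Fx ρ g ≠ ⊤ := fun e => hg (h.inj (by
  ext w
  rw [map_one, mem_Fx.1 (e ▸ Submodule.mem_top : w ∈ Fx ρ g), End.one_apply]))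

theorem fq [Finite G] {L : Subgroup G} {W : Submodule D V} (h1 : W ≠ ⊥) (h2 : W ≠ ⊤) (hi : Inv ρ L W) :
    FQ L (Pt ρ W) := by
  classical
  have : IsSimpleModule D W := isSimpleModule_iff_finrank_eq_one.2 (h.rk1 h1 h2)
  let f : L →* End D W := ⟨⟨fun x : L => (ρ x).restrict (hi x x.2), by ext w; simp⟩, fun a b => by
    ext w; simp⟩
  refine fq_of_hom f.toHomUnits fun x => ?_
  rw [← Units.val_inj, mem_Pt]
  exact ⟨fun e w hw => congrArg Subtype.val (LinearMap.congr_fun e ⟨w, hw⟩),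
    fun e => LinearMap.ext fun w => Subtype.ext (e w w.2)⟩

theorem pt_inf {W W' : Submodule D V} (hc : IsCompl W W') : Pt ρ W ⊓ Pt ρ W' = ⊥ :=
  eq_bot_iff.2 fun g hg => h.inj (by
    ext w
    obtain ⟨a, ha, b, hb, rfl⟩ := Submodule.mem_sup.1 (hc.sup_eq_top ▸ Submodule.mem_top : w ∈ W ⊔ W')
    rw [map_add, hg.1 a ha, hg.2 b hb, map_one, End.one_apply])

theorem compl_of {W W' : Submodule D V} (h1 : W ≠ ⊥) (h2 : W' ≠ ⊥) (hd : Disjoint W W') : IsCompl W W' := by
  refine ⟨hd, codisjoint_iff.2 (by_contra fun e => ?_)⟩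
  obtain ⟨u, hu, u0⟩ := (Submodule.ne_bot_iff _).1 h1
  obtain ⟨w, hw, w0⟩ := (Submodule.ne_bot_iff _).1 h2
  obtain ⟨d, rfl⟩ := h.span e (Submodule.mem_sup_left hu) u0 (Submodule.mem_sup_right hw)
  exact w0 (Submodule.disjoint_def.1 hd _ (W.smul_mem d hu) hw)

variable [CharZero D]

/-- Maschke's theorem -/
theorem exists_compl [Finite G] {L : Subgroup G} {W : Submodule D V} (h1 : W ≠ ⊥) (h2 : W ≠ ⊤)
    (hi : Inv ρ L W) : ∃ W', IsCompl W W' ∧ Inv ρ L W' := by
  have := Fintype.ofFinite L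
  have := h.fd
  obtain ⟨U, hU⟩ := W.exists_isCompl
  let p : End D V := W.subtype ∘ₗ Submodule.projectionOnto W U hU
  let q : End D V := ∑ g : L, ρ (g : G)⁻¹ * p * ρ g
  have pW : ∀ w, p w ∈ W := fun w => (Submodule.projectionOnto W U hU w).2
  have qW : ∀ w, q w ∈ W := fun w => by
    simp only [q, LinearMap.sum_apply]
    exact W.sum_mem fun g _ => hi _ (L.inv_mem g.2) _ (pW _)
  have q1 : ∀ w ∈ W, q w = (Fintype.card L : D) • w := fun w hw => by
    simp only [q, LinearMap.sum_apply, End.mul_apply]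
    rw [Finset.sum_congr rfl fun (g : L) _ => show ρ (g : G)⁻¹ (p (ρ g w)) = w by
      rw [show p (ρ g w) = ρ g w from congrArg Subtype.val
        (Submodule.projectionOnto_apply_left hU ⟨_, hi _ g.2 w hw⟩), app_inv]]
    simp [Nat.cast_smul_eq_nsmul]
  have qk : LinearMap.ker q ≠ ⊥ := fun e => h2 (eq_top_iff.2 fun w _ => by
    obtain ⟨u, rfl⟩ := (LinearMap.injective_iff_surjective.1 (LinearMap.ker_eq_bot.1 e)) w
    exact qW u)
  refine ⟨LinearMap.ker q, h.compl_of h1 qk (Submodule.disjoint_def.2 fun w hw k => ?_), fun g hg w hw => ?_⟩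
  · rw [LinearMap.mem_ker, q1 w hw] at k
    exact (smul_eq_zero.1 k).resolve_left (Nat.cast_ne_zero.2 Fintype.card_ne_zero)
  · rw [LinearMap.mem_ker] at hw ⊢
    have : q * ρ g = ρ g * q := by
      simp only [q, Finset.sum_mul, Finset.mul_sum]
      refine Fintype.sum_equiv (Equiv.mulRight (⟨g, hg⟩ : L)) _ _ fun x => ?_
      simp only [Equiv.coe_mulRight, coe_mul, mul_inv_rev, map_mul, ← mul_assoc]
      rw [← map_mul ρ g, mul_inv_cancel, map_one, one_mul]
    rw [← End.mul_apply, this, End.mul_apply, hw, map_zero]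

end Rep

end CL.DV
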