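import Cfsg.Agent.INV.DV.A1
import Cfsg.Agent.INV.DV.Lin

/-!
A lower bound for the dimension of the algebra; the algebras attached to a two-dimensional representation.
-/

set_option autoImplicit false

namespace CL.DV.A

open Module Finset Polynomial

universe v w

section Dim

variable {A : Type*} [Ring A] [Algebra ℚ A] [Module.Finite ℚ A]

theorem dim_le {p : ℕ} [hp : Fact p.Prime] {u : A} (hu : u ^ p = 1) (u1 : u ≠ 1) {ι : Type*} [Fintype ι]
    (t : ι → Aˣ) (c : ι → ℕ) (hc : Function.Injective c) (cp : ∀ i, c i < p)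
    (ht : ∀ i, (t i : A) * u = u ^ c i * t i) : (p - 1) * Fintype.card ι ≤ finrank ℚ A := by
  let N : A := ∑ k ∈ range p, u ^ k
  have cN : Commute u N := Commute.sum_right _ _ _ fun k _ => (Commute.refl u).pow_right k
  let M : Submodule ℚ A := LinearMap.ker (LinearMap.mulLeft ℚ N)
  have mM : ∀ {a : A}, a ∈ M ↔ N * a = 0 := Iff.rfl
  let L : End ℚ M := (LinearMap.mulLeft ℚ u).restrict fun a ha => mM.2 (by
    show N * (u * a) = 0
    rw [← mul_assoc, ← cN.eq, mul_assoc, mM.1 ha, mul_zero])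
  let R : End ℚ M := (LinearMap.mulRight ℚ u).restrict fun a ha => mM.2 (by
    show N * (a * u) = 0
    rw [← mul_assoc, mM.1 ha, zero_mul])
  have Lp : ∀ k (m : M), ((L ^ k) m : A) = u ^ k * m := fun k => by
    induction k with
    | zero => simp
    | succ k ih =>
      intro m
      rw [pow_succ, End.mul_apply, ih, pow_succ, mul_assoc]
      rfl
  have LR : Commute L R := LinearMap.ext fun m => Subtype.ext (mul_assoc u (m : A) u).symm
  have : Fact (Irreducible (cyclotomic p ℚ)) := ⟨cyclotomic.irreducible_rat hp.out.pos⟩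
  have z : aeval L (cyclotomic p ℚ) = 0 := by
    rw [cyclotomic_prime]
    ext m
    simp only [map_sum, map_pow, aeval_X, LinearMap.sum_apply, AddSubmonoidClass.coe_finsetSum, Lp, ← sum_mul]
    exact mM.1 m.2
  let K := AdjoinRoot (cyclotomic p ℚ)
  let φ : K →+* End ℚ M := Ideal.Quotient.lift (Ideal.span {cyclotomic p ℚ}) (aeval L).toRingHom fun a ha => by
    obtain ⟨b, rfl⟩ := Ideal.mem_span_singleton.1 ha
    show aeval L (_ * b) = 0
    rw [map_mul, z, zero_mul]
  have φm : ∀ a, φ (AdjoinRoot.mk _ a) = aeval L a := fun a => rfl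
  let : Module K M := Module.compHom M φ
  have sm : ∀ (k : K) (m : M), k • m = φ k m := fun _ _ => rfl
  have : IsScalarTower ℚ K M := ⟨fun q k m => by
    obtain ⟨a, rfl⟩ := AdjoinRoot.mk_surjective k
    rw [AdjoinRoot.smul_mk, sm, sm, φm, φm, map_smul, LinearMap.smul_apply]⟩
  have : Module.Finite K M := Module.Finite.of_restrictScalars_finite ℚ K M
  let R' : End K M :=
    { toFun := R, map_add' := R.map_add
      map_smul' := fun k m => by
        obtain ⟨a, rfl⟩ := AdjoinRoot.mk_surjective k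
        rw [RingHom.id_apply, sm, sm, φm, ← End.mul_apply, ← End.mul_apply]
        congr 1
        rw [aeval_eq_sum_range]
        exact (Commute.sum_left _ _ _ fun k _ => (LR.pow_left k).smul_left _).eq.symm }
  have N0 : N * (u - 1) = 0 := by rw [geom_sum_mul, hu, sub_self]
  let v : ι → M := fun i => ⟨(u - 1) * t i, mM.2 (by rw [← mul_assoc, N0, zero_mul])⟩
  have : CharZero K := algebraRat.charZero K
  have pr : IsPrimitiveRoot (AdjoinRoot.root (cyclotomic p ℚ)) p := (isRoot_cyclotomic_iff_charZero hp.out.pos).1 (by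
    rw [← map_cyclotomic p (AdjoinRoot.of (cyclotomic p ℚ))]
    exact AdjoinRoot.isRoot_root _)
  have li := End.eigenvectors_linearIndependent' R' (fun i => AdjoinRoot.root (cyclotomic p ℚ) ^ c i)
    (fun i j e => hc (pr.pow_inj (cp i) (cp j) e)) v fun i => by
      refine ⟨End.mem_eigenspace_iff.2 (Subtype.ext ?_), fun e => u1 ?_⟩
      · rw [sm, map_pow, AdjoinRoot.root, φm, aeval_X, Lp]
        show (u - 1) * t i * u = u ^ c i * ((u - 1) * t i)
        rw [mul_assoc, ht, ← mul_assoc, ← mul_assoc,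
          (((Commute.refl u).sub_left (Commute.one_left u)).pow_right _).eq]
      · exact sub_eq_zero.1 ((Units.mul_left_eq_zero _).1 (congrArg Subtype.val e))
  have a := li.fintype_card_le_finrank
  have b := Module.finrank_mul_finrank ℚ K M
  have d : finrank ℚ K = p - 1 := by
    rw [← Nat.totient_prime hp.out, ← natDegree_cyclotomic p ℚ]
    exact finrank_quotient_span_eq_natDegree
  rw [d] at b
  exact (Nat.mul_le_mul_left _ a).trans (b.le.trans M.finrank_le)

theorem tr_le {e : A} (he : IsIdempotentElem e) (b : A) (h : ∀ a, e * b * ((1 - e) * a) = 0 → (1 - e) * a = 0) :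
    tr (1 - e) ≤ tr e := by
  rw [tr_idem he, tr_idem he.one_sub, Nat.cast_le]
  let f : LinearMap.range (Algebra.lmul ℚ A (1 - e)) →ₗ[ℚ] LinearMap.range (Algebra.lmul ℚ A e) :=
    (LinearMap.mulLeft ℚ (e * b)).restrict fun a _ => ⟨b * a, (mul_assoc _ _ _).symm⟩
  refine LinearMap.finrank_le_finrank_of_injective (f := f) ((injective_iff_map_eq_zero f).2 ?_)
  rintro ⟨_, a, rfl⟩ ha
  exact Subtype.ext (h a (congrArg Subtype.val ha))

end Dim

variable {G : Type v} [Group G] {D : Type*} [DivisionRing D] [CharZero D]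

/-- `g` survives in a good algebra -/
def Sep (G : Type v) [Group G] (g : G) : Prop :=
  ∃ (A : Type w) (_ : Ring A) (_ : Algebra ℚ A) (σ : G →* A), Good σ ∧ σ g ≠ 1

theorem sep_of [Finite G] {V : Type w} [AddCommGroup V] [Module D V] (ρ : G →* End D V)
    (H : ∀ e : End D V, IsIdempotentElem e → e = 0 ∨ e = 1 ∨ (finrank D V = 2 ∧ Irr ρ)) {g : G} (hg : ρ g ≠ 1) :
    Sep.{v, w} G g := by
  let : Module ℚ V := Module.compHom V (algebraMap ℚ D)
  have sm : ∀ (q : ℚ) (x : V), q • x = algebraMap ℚ D q • x := fun _ _ => rfl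
  have : IsScalarTower ℚ D V := ⟨fun q d x => by rw [sm, Algebra.smul_def, mul_smul]⟩
  have : SMulCommClass D ℚ V := ⟨fun d q x => by rw [sm, sm, smul_smul, smul_smul, Algebra.commutes]⟩
  let B : Subalgebra ℚ (End D V) := Algebra.adjoin ℚ (Set.range ρ)
  have eB : Subalgebra.toSubmodule B = Submodule.span ℚ (Set.range ρ) := by
    rw [Algebra.adjoin_eq_span, ← MonoidHom.coe_mrange, Submonoid.closure_eq]
  let σ : G →* B := ρ.codRestrict B fun g => Algebra.subset_adjoin ⟨g, rfl⟩
  have sp : Submodule.span ℚ (Set.range σ) = ⊤ := by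
    apply Submodule.map_injective_of_injective (f := B.val.toLinearMap) Subtype.val_injective
    rw [Submodule.map_span, ← Set.range_comp, Submodule.map_top]
    exact eB.symm.trans (Submodule.range_subtype _).symm
  have fd : Module.Finite ℚ B := ⟨sp ▸ Submodule.fg_span (Set.finite_range _)⟩
  refine ⟨B, inferInstance, inferInstance, σ, ⟨fd, sp, fun e he => ?_⟩, fun e => hg (congrArg Subtype.val e)⟩
  by_cases e0 : e = 0
  · exact .inl e0
  by_cases e1 : e = 1
  · exact .inr (.inl e1)
  obtain ⟨h2, hi⟩ := ((H e (he.map B.val)).resolve_left fun k => e0 (Subtype.ext k)).resolve_left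
    fun k => e1 (Subtype.ext k)
  have R : Rep (1 : PUnit.{1} →* End D V) := ⟨fun _ _ _ => rfl, h2⟩
  have key : ∀ e : B, IsIdempotentElem e → e ≠ 0 → e ≠ 1 → tr (1 - e) ≤ tr e := fun e he e0 e1 => by
    let W : Submodule D V := LinearMap.ker e.1
    have W1 : W ≠ ⊤ := fun k => e0 (Subtype.ext (LinearMap.ker_eq_top.1 k))
    have mW : ∀ x, (1 - e).1 x ∈ W := fun x => by
      show (e * (1 - e)).1 x = 0
      rw [he.mul_one_sub_self]; rfl
    have W0 : W ≠ ⊥ := fun k => e1 (sub_eq_zero.1 (Subtype.ext (LinearMap.ext fun x => by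
      simpa [k] using mW x))).symm
    obtain ⟨g, x, hx, k⟩ : ∃ g, ∃ x ∈ W, ρ g x ∉ W := by
      by_contra k
      push Not at k
      exact (hi W fun g _ => k g).elim W0 W1
    exact tr_le he (σ g) fun a ha => Subtype.ext (LinearMap.ext fun y =>
      R.eq_zero_of W1 (a := (e * σ g).1) hx (mW (a.1 y)) k (LinearMap.congr_fun (congrArg Subtype.val ha) y))
  have a := key e he e0 e1
  have b := key (1 - e) he.one_sub (fun k => e1 (sub_eq_zero.1 k).symm) fun k => e0 (by simpa using k)
  rw [sub_sub_cancel] at b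
  rw [map_sub, tr_one] at a b
  exact .inr (.inr (by linarith))

theorem sep [Finite G] {V : Type w} [AddCommGroup V] [Module D V] {ρ : G →* End D V} (h : Rep ρ) {g : G}
    (hg : g ≠ 1) : Sep.{v, w} G g := by
  by_cases hi : Irr ρ
  · exact sep_of ρ (fun _ _ => .inr (.inr ⟨h.rk, hi⟩)) fun e => hg (h.inj (e.trans (map_one ρ).symm))
  have key : ∀ W : Submodule D V, W ≠ ⊥ → W ≠ ⊤ → Inv ρ ⊤ W → g ∉ Pt ρ W → Sep.{v, w} G g := fun W h1 h2 i k => by
    classical
    have : IsSimpleModule D W := isSimpleModule_iff_finrank_eq_one.2 (h.rk1 h1 h2)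
    let f : G →* End D W := ⟨⟨fun x => (ρ x).restrict (i x trivial), by ext w; simp⟩, fun a b => by ext w; simp⟩
    exact sep_of f (fun e he => (IsIdempotentElem.iff_eq_zero_or_one.1 he).imp_right .inl) fun e =>
      k fun w hw => congrArg Subtype.val (LinearMap.congr_fun e ⟨w, hw⟩)
  unfold Irr at hi
  push Not at hi
  obtain ⟨W, i, h1, h2⟩ := hi
  obtain ⟨W', c, i'⟩ := h.exists_compl h1 h2 i
  by_cases k : g ∈ Pt ρ W
  · refine key W' (fun e => h2 (by simpa [e] using c.sup_eq_top)) (fun e => h1 (by simpa [e] using c.inf_eq_bot)) i'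
      fun k' => hg (Subgroup.mem_bot.1 (h.pt_inf c ▸ Subgroup.mem_inf.2 ⟨k, k'⟩))
  · exact key W h1 h2 i k

end CL.DV.A
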