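/- Noncentral involutions of a quasisimple group with a "two lines" structure: basic calculus. -/
import Cfsg.Agent.TECH.SylIn
import Cfsg.Agent.TECH.CFSection
import Cfsg.Agent.INV.ThompsonTransfer
import Cfsg.Agent.INV.ZStarCor
import Cfsg.Agent.INV.IndexTwo
import Cfsg.Agent.SOLV.PGroupCyclicSCN

set_option autoImplicit false

namespace CL.DV.B

open Subgroup CL.MSS

variable {G : Type*} [Group G]

/-- noncentral involution -/
def Pt (t : G) : Prop := t * t = 1 ∧ t ∉ center G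

structure H0 (z : G) (K : G → Subgroup G) : Prop where
  z2 : z * z = 1
  z1 : z ≠ 1
  zc : ∀ g, g * z = z * g
  perf : commutator G = ⊤
  simp : IsSimpleGroup (G ⧸ center G)
  z2g : IsPGroup 2 (center G)
  cz0 : ∀ x ∈ center G, x * x = 1 → x = 1 ∨ x = z
  mem : ∀ {t}, Pt t → t ∈ K t
  cm : ∀ {t}, Pt t → ∀ {x}, x ∈ K t → x * t = t * x
  disj : ∀ {t}, Pt t → ∀ {x}, x ∈ K t → x ∈ K (z * t) → x = 1
  cj : ∀ {t}, Pt t → ∀ g {x}, x ∈ K t → g * x * g⁻¹ ∈ K (g * t * g⁻¹)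
  ui : ∀ {t}, Pt t → ∀ {c}, c * t = t * c → c * c ∈ K t → c ∈ K t ∨ z * c ∈ K t

theorem r_ac {x y z : G} (h : x * y = z * (y * x)) (u : G) : x * (y * u) = z * (y * (x * u)) := by
  rw [← mul_assoc, h]; group

theorem r_cm {x y : G} (h : x * y = y * x) (u : G) : x * (y * u) = y * (x * u) := by
  rw [← mul_assoc, h]; group

theorem r_sq {x c : G} (h : x * x = c) (u : G) : x * (x * u) = c * u := by rw [← mul_assoc, h]

theorem r_one {x : G} (h : x * x = 1) (u : G) : x * (x * u) = u := by rw [← mul_assoc, h, one_mul]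

theorem pw {T : Subgroup G} (hT : IsPGroup 2 T) {c : G} (hc : c ∈ T) : ∃ n, c ^ 2 ^ n = 1 :=
  (hT ⟨c, hc⟩).imp fun _ h => congrArg Subtype.val h

theorem Pt.conj {t : G} (h : Pt t) (g : G) : Pt (g * t * g⁻¹) :=
  ⟨by rw [conj_mul, h.1]; group, fun e => h.2 (by
    have := (inferInstance : (center G).Normal).conj_mem _ e g⁻¹
    simpa [mul_assoc] using this)⟩

theorem Pt.inv {t : G} (h : Pt t) : t⁻¹ = t := inv_eq_of_mul_eq_one_right h.1

theorem Pt.ne {t : G} (h : Pt t) : t ≠ 1 := fun e => h.2 (e ▸ one_mem _)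

theorem quat_center {n : ℕ} {c : QuaternionGroup (2 ^ (n + 1))} (h : ∀ y, y * c = c * y) : c * c = 1 := by
  rcases c with i | i
  · have := h (.xa 0)
    simp only [QuaternionGroup.xa_mul_a, QuaternionGroup.a_mul_xa, QuaternionGroup.xa.injEq] at this
    rw [QuaternionGroup.a_mul_a, QuaternionGroup.one_def]
    congr 1
    linear_combination this
  · have := h (.a 1)
    simp only [QuaternionGroup.xa_mul_a, QuaternionGroup.a_mul_xa, QuaternionGroup.xa.injEq] at this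
    have h2 : ((2 : ℕ) : ZMod (2 * 2 ^ (n + 1))) = 0 := by push_cast; linear_combination -this
    rw [ZMod.natCast_eq_zero_iff] at h2
    have := Nat.le_of_dvd two_pos h2
    have : 1 < 2 ^ (n + 1) := Nat.one_lt_two_pow n.succ_ne_zero
    omega

theorem cyc_inv [Finite G] {b s z : G} (hs : s ∈ zpowers b) (hz : z ∈ zpowers b) (s2 : s * s = 1) (z2 : z * z = 1)
    (s1 : s ≠ 1) (z1 : z ≠ 1) : s = z := by
  classical
  by_contra h
  have := Fintype.ofFinite (zpowers b)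
  have h1 := IsCyclic.card_pow_eq_one_le (α := zpowers b) two_pos
  have h2 : ({1, ⟨s, hs⟩, ⟨z, hz⟩} : Finset (zpowers b)) ⊆ Finset.univ.filter fun a => a ^ 2 = 1 := by
    intro x hx
    simp only [Finset.mem_insert, Finset.mem_singleton] at hx
    rcases hx with rfl | rfl | rfl <;> simp [sq, Subtype.ext_iff, s2, z2]
  have h3 := Finset.card_le_card h2
  rw [Finset.card_eq_three.2 ⟨_, _, _, by simp [Subtype.ext_iff, s1.symm], by simp [Subtype.ext_iff, z1.symm],
    by simp [h], rfl⟩] at h3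
  omega

namespace H0

variable {z : G} {K : G → Subgroup G} (H : H0 z K)
include H

theorem mv (x u : G) : x * (z * u) = z * (x * u) := r_cm (H.zc x) u

theorem zz (u : G) : z * (z * u) = u := r_one H.z2 u

theorem zi : z⁻¹ = z := inv_eq_of_mul_eq_one_right H.z2

theorem zcen : z ∈ center G := mem_center_iff.2 H.zc

theorem inv4 {a : G} (h : a * a = z) : a⁻¹ = z * a :=
  inv_eq_of_mul_eq_one_right (by rw [H.mv, h, H.z2])

theorem ne_z {x : G} : x ≠ z * x := fun e => H.z1 (by simpa using e.symm)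

theorem ptz {t : G} (h : Pt t) : Pt (z * t) :=
  ⟨by rw [mul_assoc, H.mv, H.zz, h.1], fun e => h.2 (by simpa [H.zz] using mul_mem H.zcen e)⟩

theorem ac_symm {x y : G} (h : x * y = z * (y * x)) : y * x = z * (x * y) := by rw [h, H.zz]

theorem nz {t : G} (h : Pt t) : z ∉ K t := fun e =>
  (H.ptz h).ne (H.disj h (mul_mem e (H.mem h)) (H.mem (H.ptz h)))

theorem disj' {t : G} (h : Pt t) {x : G} (h1 : x ∈ K (z * t)) (h2 : x ∈ K t) : x = 1 := H.disj h h2 h1

theorem four {t s : G} (h : Pt t) (s2 : s * s = 1) (c : s * t = t * s) : s = 1 ∨ s = z ∨ s = t ∨ s = z * t := by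
  have h' := H.ptz h
  rcases H.ui h c (s2 ▸ one_mem _) with a | a <;>
    rcases H.ui h' (c := s) (by rw [H.mv, c, mul_assoc]) (s2 ▸ one_mem _) with b | b
  · exact .inl (H.disj h a b)
  · have := H.disj h (mul_mem a (H.mem h)) (by
      have := mul_mem b (H.mem h'); rwa [mul_assoc, H.mv s, H.zz] at this)
    exact .inr (.inr (.inl (by rw [eq_inv_of_mul_eq_one_left this, h.inv])))
  · have := H.disj h (mul_mem a (H.mem h)) (by have := mul_mem b (H.mem h'); rwa [H.mv, ← mul_assoc] at this)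
    rw [mul_assoc, ← H.mv] at this
    exact .inr (.inr (.inr (by rw [eq_inv_of_mul_eq_one_left this, h'.inv])))
  · exact .inr (.inl (by rw [eq_inv_of_mul_eq_one_right (H.disj h a b), H.zi]))

/-- commuting points -/
theorem pt_cm {t s : G} (h : Pt t) (hs : Pt s) (c : s * t = t * s) : s = t ∨ s = z * t := by
  rcases H.four h hs.1 c with e | e | e | e
  exacts [absurd e hs.ne, absurd (e ▸ H.zcen) hs.2, .inl e, .inr e]

theorem nrm {t c x : G} (h : Pt t) (hc : c * t = t * c) (hx : x ∈ K t) : c * x * c⁻¹ ∈ K t := by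
  have := H.cj h c hx
  rwa [hc, mul_inv_cancel_right] at this

theorem swp {t w x : G} (h : Pt t) (hw : w * t = z * (t * w)) (hx : x ∈ K t) : w * x * w⁻¹ ∈ K (z * t) := by
  have := H.cj h w hx
  rwa [hw, ← mul_assoc, mul_inv_cancel_right] at this

theorem u2k {t c a : G} (h : Pt t) (hc : c * t = t * c) (ha : a * t = t * a) (a2 : a * a = z)
    (ca : c * a = z * (a * c)) {n : ℕ} (hn : c ^ 2 ^ n = 1) : z * (c * c) ∈ K t := by
  have bad : ∀ {g y : G}, g * t = t * g → g * y = z * (y * g) → (y ∈ K t ∨ z * y ∈ K t) → False := by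
    intro g y hg e hy
    have e1 : g * y * g⁻¹ * y⁻¹ = z := by rw [e]; group
    have e2 : g * (z * y) * g⁻¹ * (z * y)⁻¹ = z := by
      rw [H.mv, e, H.zz, mul_inv_rev, H.zi]; group
    rcases hy with hy | hy
    exacts [H.nz h (e1 ▸ mul_mem (H.nrm h hg hy) (inv_mem hy)), H.nz h (e2 ▸ mul_mem (H.nrm h hg hy) (inv_mem hy))]
  have c2 : Commute (c ^ 2) a := by
    rw [sq, Commute, SemiconjBy, mul_assoc, ca, H.mv, r_ac ca, H.zz]
  have ct : ∀ m : ℕ, c ^ m * t = t * c ^ m := fun m => (Commute.pow_left hc m).eq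
  have key : ∀ m, (c ^ 2 ^ (m + 1) ∈ K t ∨ z * c ^ 2 ^ (m + 1) ∈ K t) → c ^ 2 ∈ K t ∨ z * c ^ 2 ∈ K t := by
    intro m
    induction m with
    | zero => simp
    | succ m ih =>
      intro hm
      have e : c ^ 2 ^ (m + 1 + 1) = c ^ 2 ^ (m + 1) * c ^ 2 ^ (m + 1) := by rw [← pow_add, pow_succ 2 (m + 1), mul_two]
      rw [e] at hm
      refine hm.elim (fun hm => ih (H.ui h (ct _) hm)) fun hm => ?_
      have da : Commute (c ^ 2 ^ (m + 1)) a := by rw [pow_succ', pow_mul]; exact c2.pow_left _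
      refine (bad (y := c ^ 2 ^ (m + 1) * a) hc ?_ (H.ui h (by rw [mul_assoc, ha, r_cm (ct _)]) ?_)).elim
      · rw [r_cm ((Commute.refl c).pow_right _).eq, ca, H.mv, mul_assoc]
      · rwa [mul_assoc, r_cm da.symm.eq, a2, H.zc, H.mv]
  rw [← sq]
  refine (key n (.inl (by rw [pow_succ, pow_mul, hn, one_pow]; exact one_mem _))).resolve_left fun e => ?_
  exact bad ha (H.ac_symm ca) (H.ui h hc (sq c ▸ e))

/-- a 2-element centralising a point and inverting an element of order four squares to `z` -/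
theorem sq_z {t c a : G} (h : Pt t) (hc : c * t = t * c) (ha : a * t = t * a) (a2 : a * a = z)
    (ca : c * a = z * (a * c)) {n : ℕ} (hn : c ^ 2 ^ n = 1) : c * c = z := by
  have := H.disj h (H.u2k h hc ha a2 ca hn) (H.u2k (H.ptz h) (by rw [H.mv, hc, mul_assoc])
    (by rw [H.mv, ha, mul_assoc]) a2 ca hn)
  rw [eq_inv_of_mul_eq_one_right this, H.zi]

theorem cyc [Finite G] {t a : G} (h : Pt t) {A : Subgroup G} (hA : IsPGroup 2 A) (hc : ∀ y ∈ A, y * t = t * y)
    (ha : a ∈ A) (a2 : a * a = z) (hca : ∀ y ∈ A, y * a = a * y) :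
    ∃ x ∈ A, ∀ y ∈ A, ∃ k : ℕ, (x ^ k)⁻¹ * y ∈ K t := by
  have hN : ((K t).subgroupOf A).Normal := ⟨fun x hx g => H.nrm h (hc _ g.2) hx⟩
  have hz : z ∈ A := a2 ▸ mul_mem ha ha
  have uq : ∀ q : A ⧸ (K t).subgroupOf A, orderOf q = 2 → q = ((⟨z, hz⟩ : A) : A ⧸ (K t).subgroupOf A) := by
    intro q hq
    obtain ⟨c, rfl⟩ := QuotientGroup.mk_surjective q
    have h1 := pow_orderOf_eq_one (c : A ⧸ (K t).subgroupOf A)
    rw [hq, sq, ← QuotientGroup.mk_mul, QuotientGroup.eq_one_iff] at h1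
    rcases H.ui h (hc _ c.2) h1 with e | e
    · rw [(QuotientGroup.eq_one_iff c).2 e, orderOf_one] at hq; omega
    · exact (QuotientGroup.eq.2 (mem_subgroupOf.2 (show z⁻¹ * c ∈ K t by rwa [H.zi]))).symm
  rcases CL.PCyc.isCyclic_or_quaternion (hA.to_quotient ((K t).subgroupOf A))
    (fun x y hx hy _ => by rw [uq x hx, uq y hy]; exact mem_zpowers _) with h1 | ⟨-, n, ⟨e⟩⟩
  · obtain ⟨q, hq⟩ := IsCyclic.exists_monoid_generator (α := A ⧸ (K t).subgroupOf A)
    obtain ⟨x, rfl⟩ := QuotientGroup.mk_surjective q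
    refine ⟨x, x.2, fun y hy => ?_⟩
    obtain ⟨k, hk⟩ := hq ((⟨y, hy⟩ : A) : A ⧸ (K t).subgroupOf A)
    exact ⟨k, mem_subgroupOf.1 (QuotientGroup.eq.1
      (show ((x ^ k : A) : A ⧸ (K t).subgroupOf A) = (⟨y, hy⟩ : A) from hk))⟩
  · have := quat_center (c := e ((⟨a, ha⟩ : A) : A ⧸ (K t).subgroupOf A)) fun y => by
      obtain ⟨y, rfl⟩ := e.surjective y
      obtain ⟨y, rfl⟩ := QuotientGroup.mk_surjective y
      rw [← map_mul, ← map_mul, ← QuotientGroup.mk_mul, ← QuotientGroup.mk_mul]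
      exact congrArg (fun x : A => e (x : A ⧸ (K t).subgroupOf A)) (Subtype.ext (hca _ y.2))
    rw [← map_mul, ← QuotientGroup.mk_mul, map_eq_one_iff _ e.injective, QuotientGroup.eq_one_iff] at this
    exact (H.nz h (a2 ▸ this)).elim

theorem idx (M : Subgroup G) : M.index ≠ 2 := fun e => by
  obtain ⟨φ, hφ⟩ := CL.Iso.exists_sign_hom e
  have : M = ⊤ := eq_top_iff.2 fun x _ => (hφ x).1 (Abelianization.commutator_subset_ker φ (H.perf ▸ mem_top x))
  rw [this, index_top] at e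
  omega

theorem cen_le {T : Subgroup G} (hT : SylIn 2 T ⊤) : center G ≤ T :=
  hT.le_of_normalized H.z2g le_top le_normalizer_of_normal

variable [Finite G]

theorem thom {T U : Subgroup G} (hT : SylIn 2 T ⊤) (hU : U ≤ T) (hi : U.relIndex T ∣ 2) {u : G} (hu : u * u = 1) :
    ∃ g, g * u * g⁻¹ ∈ U :=
  CL.ThompsonTransfer.exists_conj_mem H.idx hT.toSylowTop hU hi hu

omit [Finite G] in
theorem nab {t : G} (h : Pt t) : ¬ IsMulCommutative (G ⧸ center G) := fun e =>
  h.2 ((H.perf ▸ Normal.quotient_commutative_iff_commutator_le.1 e : ⊤ ≤ center G) (mem_top t))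

/-- `Z*` in the simple quotient -/
theorem zst {t : G} (h : Pt t) {T : Subgroup G} (hT : SylIn 2 T ⊤) {x : G} (x1 : x ∉ center G)
    (x2 : x * x ∈ center G) (hc : ∀ y ∈ T, y * x * y⁻¹ * x⁻¹ ∈ center G) :
    ∃ g, g * x * g⁻¹ ∈ T ∧ x⁻¹ * (g * x * g⁻¹) ∉ center G := by
  have := H.simp
  set π := QuotientGroup.mk' (center G)
  have x3 : π x * π x = 1 := by rw [← map_mul]; exact (QuotientGroup.eq_one_iff _).2 x2
  have h1 := CL.BS.not_isolated_of_simple (H.nab h) (π x)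
  simp only [Cfsg.IsIsolatedInvolution, not_and, not_forall] at h1
  obtain ⟨g, hg, hne⟩ := h1 (orderOf_eq_prime (by rwa [sq]) fun e => x1 ((QuotientGroup.eq_one_iff _).1 e))
  have h2 := hT.map π
  rw [map_top_of_surjective _ (QuotientGroup.mk'_surjective _)] at h2
  obtain ⟨k, hk, h3⟩ := (h2.of_le (K := centralizer {π x}) (by
    rintro _ ⟨y, hy, rfl⟩
    rw [mem_centralizer_singleton_iff, ← map_mul, ← map_mul]
    exact (QuotientGroup.eq.2 (by
      have := (inferInstance : (center G).Normal).conj_mem _ (hc y hy) (x * y)⁻¹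
      simpa [mul_assoc] using this)).symm) le_top).exists_conj_le (R := zpowers (g * π x * g⁻¹))
    (IsPGroup.of_card (n := 1) (by
      rw [Nat.card_zpowers, pow_one]
      exact orderOf_eq_prime (by rw [sq, conj_mul, x3]; group) fun e => x1 ((QuotientGroup.eq_one_iff _).1
        (conj_eq_one_iff.1 e))))
    (zpowers_le.2 (mem_centralizer_singleton_iff.2 hg.symm.eq))
  obtain ⟨c, hc⟩ := QuotientGroup.mk'_surjective (center G) (k * g)
  have e1 : π (c * x * c⁻¹) = k * (g * π x * g⁻¹) * k⁻¹ := by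
    rw [map_mul, map_mul, map_inv, show π c = k * g from hc]; group
  refine ⟨c, ?_, fun e => hne ?_⟩
  · obtain ⟨y, hy, e⟩ := h3 (conj_mem_cj (mem_zpowers _))
    rw [← e1] at e
    simpa using mul_mem hy (H.cen_le hT (QuotientGroup.eq.1 e))
  · have e2 : π x = π (c * x * c⁻¹) := QuotientGroup.eq.2 e
    rw [e1] at e2
    rw [mem_centralizer_singleton_iff] at hk
    calc g * π x * g⁻¹ = k⁻¹ * (k * (g * π x * g⁻¹) * k⁻¹) * k := by group
      _ = π x := by rw [← e2, mul_assoc, ← hk]; group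

theorem exists_T {t₀ : G} (h₀ : Pt t₀) : ∃ T t u, SylIn 2 T ⊤ ∧ Pt t ∧ Pt u ∧ t ∈ T ∧ u ∈ T ∧
    (∀ g ∈ T, g * t = t * g ∨ g * t = z * (t * g)) ∧ u * t = z * (t * u) := by
  obtain ⟨T, hT⟩ := exists_sylIn 2 (⊤ : Subgroup G)
  have nc : ∀ b : T, ¬ (zpowers b).index ∣ 2 := fun b hb => by
    have hi : (zpowers (b : G)).relIndex T ∣ 2 := by
      rwa [relIndex, ← coe_subtype, ← MonoidHom.map_zpowers, subgroupOf,
        comap_map_eq_self_of_injective T.subtype_injective]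
    obtain ⟨g, hg⟩ := H.thom hT (zpowers_le.2 b.2) hi h₀.1
    obtain ⟨g', hg'⟩ := H.thom hT (zpowers_le.2 b.2) hi H.z2
    rw [H.zc, mul_inv_cancel_right] at hg'
    exact (h₀.conj g).2 (cyc_inv hg hg' (h₀.conj g).1 H.z2 (h₀.conj g).ne H.z1 ▸ H.zcen)
  have hn : ∃ t ∈ T, Pt t ∧ ∀ g ∈ T, g * t = t * g ∨ g * t = z * (t * g) := by
    rcases CL.PCyc.isCyclic_or_normal_elemAb_or_isDQS hT.pgroup with h | ⟨E, hE, h1, h2⟩ | ⟨-, n, a, b, h⟩
    · obtain ⟨b, hb⟩ := IsCyclic.exists_generator (α := T)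
      exact (nc b (by rw [(eq_top_iff' _).2 hb, index_top]; exact one_dvd _)).elim
    · obtain ⟨x, hx, y, hy, ox, oy, hxy⟩ := CL.PCyc.exists_pair_of_elemAb h1 (by rw [h2]; norm_num)
      have key : ∀ e ∈ E, orderOf e = 2 → (e : G) ≠ z → ∃ t ∈ T, Pt t ∧ ∀ g ∈ T, g * t = t * g ∨ g * t = z * (t * g) := by
        intro e he oe ez
        have e2 : (e : G) * e = 1 := by rw [← coe_mul, ← sq, ← oe, pow_orderOf_eq_one, coe_one]
        have pe : Pt (e : G) := ⟨e2, fun c => (H.cz0 _ c e2).elim (fun e1 => by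
          rw [show e = 1 from Subtype.ext e1, orderOf_one] at oe; omega) ez⟩
        refine ⟨e, e.2, pe, fun g hg => ?_⟩
        have := congrArg (fun x : E => ((x : T) : G)) (h1.1.is_comm.comm ⟨_, hE.conj_mem _ he ⟨g, hg⟩⟩ ⟨e, he⟩)
        exact (H.pt_cm pe (pe.conj g) this).imp mul_inv_eq_iff_eq_mul.1 fun e => by
          rw [mul_inv_eq_iff_eq_mul.1 e, mul_assoc]
      by_cases e : (x : G) = z
      · exact key y hy oy fun e' => hxy (by rw [show y = x from Subtype.ext (e'.trans e.symm)]; exact mem_zpowers _)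
      · exact key x hx ox e
    · exact (nc a (h.index_eq ▸ dvd_rfl)).elim
  obtain ⟨t, ht, pt, hn⟩ := hn
  obtain ⟨g, h1, h2⟩ := H.zst pt hT pt.2 (pt.1 ▸ one_mem _) fun y hy => by
    rcases hn y hy with e | e <;> rw [e]
    · simp
    · simpa [mul_assoc] using H.zcen
  refine ⟨T, t, _, hT, pt, pt.conj g, ht, h1, hn, (hn _ h1).resolve_left fun e => h2 ?_⟩
  rcases H.pt_cm pt (pt.conj g) e with e | e <;> rw [e]
  · simp
  · rw [H.mv]; simpa using H.zcen

omit H [Finite G] in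
theorem pow4 {y c : G} {n : ℕ} (hn : y ^ 2 ^ n = 1) (h : ∀ k : ℕ, y ^ k * y ^ k = 1 → y ^ k = 1 ∨ y ^ k = c) :
    y = 1 ∨ y = c ∨ ∃ k : ℕ, y ^ k * y ^ k = c := by
  have key : ∀ m, (y ^ 2 ^ m = 1 ∨ y ^ 2 ^ m = c) → y = 1 ∨ y = c ∨ ∃ k : ℕ, y ^ k * y ^ k = c := by
    intro m
    induction m with
    | zero => intro e; rw [pow_zero, pow_one] at e; exact e.imp_right .inl
    | succ m ih =>
      intro hm
      rw [pow_succ, mul_two, pow_add] at hm
      exact hm.elim (fun e => ih (h _ e)) fun e => .inr (.inr ⟨_, e⟩)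
  exact key n (.inl hn)

theorem cz {t₀ : G} (h₀ : Pt t₀) {x : G} (hx : x ∈ center G) : x = 1 ∨ x = z := by
  obtain ⟨n, hn⟩ := pw H.z2g hx
  rcases pow4 hn fun k => H.cz0 _ (pow_mem hx k) with e | e | ⟨k, a2⟩
  · exact .inl e
  · exact .inr e
  have ha := pow_mem hx k
  generalize x ^ k = a at a2 ha
  obtain ⟨T, t, u, hT, pt, pu, ht, hu, hn, ut⟩ := H.exists_T h₀
  have ac := mem_center_iff.1 ha
  set A := T ⊓ centralizer {t}
  have hA : ∀ y, y ∈ A ↔ y ∈ T ∧ y * t = t * y := fun y => by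
    simp only [A, mem_inf, mem_centralizer_singleton_iff]
  have haA : a ∈ A := (hA _).2 ⟨H.cen_le hT ha, (ac t).symm⟩
  have k1 : ∀ {s}, Pt s → (∀ y ∈ A, y * s = s * y) → ∀ y ∈ A, ∀ y' ∈ A, y * y' * y⁻¹ * y'⁻¹ ∈ K s := by
    intro s ps hs y hy y' hy'
    obtain ⟨x, hx, h⟩ := H.cyc ps (hT.pgroup.to_le inf_le_left) hs haA a2 fun y _ => ac y
    obtain ⟨i, hi⟩ := h y hy
    obtain ⟨j, hj⟩ := h y' hy'
    have := mul_mem (mul_mem (H.nrm ps (hs _ (pow_mem hx i)) hi) (H.nrm ps (hs _ (pow_mem hx (i + j)))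
      (mul_mem hj (inv_mem hi)))) (H.nrm ps (hs _ (pow_mem hx j)) (inv_mem hj))
    convert this using 1
    group
  have ab : ∀ y ∈ A, ∀ y' ∈ A, y * y' = y' * y := fun y hy y' hy' => by
    have := H.disj pt (k1 pt (fun y hy => ((hA y).1 hy).2) y hy y' hy') (k1 (H.ptz pt)
      (fun y hy => by rw [H.mv, ((hA y).1 hy).2, mul_assoc]) y hy y' hy')
    rw [← commutatorElement_def] at this
    exact commutatorElement_eq_one_iff_mul_comm.1 this
  have cu : ∀ y ∈ A, u * y * u ∈ A := fun y hy => (hA _).2 ⟨mul_mem (mul_mem hu ((hA _).1 hy).1) hu, by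
    simp only [mul_assoc, ut, H.mv y, H.mv u, r_cm ((hA _).1 hy).2, r_ac ut, H.zz]⟩
  let W : Subgroup G :=
    { carrier := {y | y ∈ A ∧ u * y * u = y⁻¹}
      one_mem' := ⟨one_mem _, by simp [pu.1]⟩
      mul_mem' := fun {y y'} h h' => ⟨mul_mem h.1 h'.1, by
        rw [ab y h.1 y' h'.1, mul_inv_rev, ← h.2, ← h'.2, ← ab y h.1 y' h'.1]
        simp only [mul_assoc, r_one pu.1]⟩
      inv_mem' := fun {y} h => ⟨inv_mem h.1, by
        have := congrArg (·⁻¹) h.2
        simpa [pu.inv, mul_assoc] using this⟩ }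
  have mW : ∀ e ∈ A, e * (u * e * u)⁻¹ ∈ W := fun e he => ⟨mul_mem he (inv_mem (cu e he)), by
    simp only [mul_inv_rev, pu.inv, mul_assoc, pu.1, inv_inv, mul_one]⟩
  have dec : ∀ g ∈ T, g ∈ A ∨ ∃ c ∈ A, g = c * u := fun g hg => (hn g hg).imp (fun e => (hA _).2 ⟨hg, e⟩)
    fun e => ⟨g * u, (hA _).2 ⟨mul_mem hg hu, by simp only [mul_assoc, ut, H.mv g, r_ac e, H.zz]⟩, by
      rw [mul_assoc, pu.1, mul_one]⟩
  have hW : ⁅T, T⁆ ≤ W := commutator_le.2 fun g hg g' hg' => by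
    rw [commutatorElement_def]
    rcases dec g hg with hc | ⟨c, hc, rfl⟩ <;> rcases dec g' hg' with hd | ⟨d, hd, rfl⟩
    · rw [ab g hc g' hd]; simp
    · convert mW g hc using 1
      have := r_cm (ab d hd _ (cu _ (inv_mem hc))) d⁻¹
      simp only [mul_inv_rev, pu.inv, mul_assoc, mul_inv_cancel, mul_one] at this ⊢
      rw [this]
    · convert mW _ (cu _ hd) using 1
      have := r_cm (ab c hc _ (cu _ hd)) (c⁻¹ * g'⁻¹)
      simp only [mul_inv_rev, pu.inv, mul_assoc, mul_inv_cancel_left, r_one pu.1, pu.1, mul_one] at this ⊢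
      rw [this]
    · convert mW _ (mul_mem hc (cu _ hd)) using 1
      have := ab _ (inv_mem hd) _ (cu _ (inv_mem hc))
      simp only [mul_inv_rev, pu.inv, mul_assoc, r_one pu.1, pu.1, mul_one] at this ⊢
      rw [this, r_one pu.1]
  have := (hW (CL.CF.inf_center_commutator_le hT ⟨⟨H.cen_le hT ha, by
    rw [← _root_.commutator_def, H.perf]; exact mem_top a⟩, ha⟩)).2
  rw [ac u, mul_assoc, pu.1, mul_one, H.inv4 a2] at this
  exact (H.ne_z this).elim

end H0

end CL.DV.B
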