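/- Anticommuting pairs of noncentral involutions. -/
import Cfsg.Agent.INV.DV.B1
import Cfsg.Agent.SOLV.MinNormal

set_option autoImplicit false

namespace CL.DV.B

open Subgroup CL.MSS

variable {G : Type*} [Group G]

def pr : G →* G ⧸ center G := QuotientGroup.mk' _

theorem pr_surj : Function.Surjective (pr : G → G ⧸ center G) := QuotientGroup.mk'_surjective _

theorem pr_ker : (pr : G →* G ⧸ center G).ker = center G := QuotientGroup.ker_mk' _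

theorem pr_one {x : G} : pr x = 1 ↔ x ∈ center G := QuotientGroup.eq_one_iff _

/-- elements commuting with `x` modulo the centre -/
def Nm (x : G) : Subgroup G := (centralizer {pr x}).comap pr

theorem mem_Nm {g x : G} : g ∈ Nm x ↔ pr g * pr x = pr x * pr g := mem_centralizer_singleton_iff

theorem mem_Nm' {g x : G} : g ∈ Nm x ↔ pr g * pr x * (pr g)⁻¹ = pr x := by rw [mem_Nm, mul_inv_eq_iff_eq_mul]

theorem Nm_symm {g x : G} (h : g ∈ Nm x) : x ∈ Nm g := mem_Nm.2 (mem_Nm.1 h).symm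

theorem Nm_congr {x y : G} (h : pr x = pr y) : Nm x = Nm y := by rw [Nm, Nm, h]

theorem Nm_cj {y x : G} (h : y ∈ Nm x) (g : G) : g * y * g⁻¹ ∈ Nm (g * x * g⁻¹) := by
  rw [mem_Nm] at h ⊢
  simp only [map_mul, map_inv, conj_mul, h]

theorem Nm_mul {g x y : G} (h : g ∈ Nm x) (h' : g ∈ Nm y) : g ∈ Nm (x * y) :=
  Nm_symm (mul_mem (Nm_symm h) (Nm_symm h'))

theorem Nm_of {g x : G} (h : g * x = x * g) : g ∈ Nm x := mem_Nm.2 (by rw [← map_mul, h, map_mul])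

theorem Nm_self (x : G) : x ∈ Nm x := Nm_of rfl

/-- the centraliser of a pair -/
abbrev L (t w : G) : Subgroup G := centralizer {t} ⊓ centralizer {w}

theorem mem_L {t w c : G} : c ∈ L t w ↔ c * t = t * c ∧ c * w = w * c := by
  simp only [mem_inf, mem_centralizer_singleton_iff]

structure H1 (z : G) (K : G → Subgroup G) : Prop extends H0 z K where
  czz : ∀ x ∈ center G, x = 1 ∨ x = z

/-- anticommuting points -/
structure AP (z t w : G) : Prop where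
  pt : Pt t
  pw : Pt w
  ac : w * t = z * (t * w)

namespace H1

variable {z : G} {K : G → Subgroup G} (H : H1 z K)
include H

theorem prz : pr z = 1 := pr_one.2 H.zcen

theorem pr_eq {x y : G} : pr x = pr y ↔ x = y ∨ x = z * y := by
  refine ⟨fun h => (H.czz _ (QuotientGroup.eq.1 h.symm)).imp (fun e => (inv_mul_eq_one.1 e).symm) fun e => ?_, ?_⟩
  · rw [← H.zc, ← e, mul_inv_cancel_left]
  · rintro (rfl | rfl)
    exacts [rfl, by rw [map_mul, H.prz, one_mul]]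

theorem nm {g x : G} : g ∈ Nm x ↔ g * x = x * g ∨ g * x = z * (x * g) := by
  rw [mem_Nm, ← map_mul, ← map_mul, H.pr_eq]

theorem Nm_ac {g x : G} (h : g * x = z * (x * g)) : g ∈ Nm x := H.nm.2 (.inr h)

theorem cm_pr {c x y : G} (h : c * x = x * c) (e : pr y = pr x) : c * y = y * c := by
  rcases H.pr_eq.1 e with rfl | rfl
  exacts [h, by rw [H.mv, h, mul_assoc]]

theorem ac_pr {c x y : G} (h : c * x = z * (x * c)) (e : pr y = pr x) : c * y = z * (y * c) := by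
  rcases H.pr_eq.1 e with rfl | rfl
  exacts [h, by rw [H.mv, h, mul_assoc]]

theorem sq_pr {x y : G} (e : pr y = pr x) : y * y = x * x := by
  rcases H.pr_eq.1 e with rfl | rfl
  exacts [rfl, by rw [mul_assoc, H.mv x, H.zz]]

theorem not_cm {x y : G} (h : x * y = z * (y * x)) : x * y ≠ y * x := fun e => H.ne_z (e.symm.trans h)

theorem ap_symm {t w : G} (h : AP z t w) : AP z w t := ⟨h.pw, h.pt, H.ac_symm h.ac⟩

theorem ap_ne {t w : G} (h : AP z t w) : pr t ≠ pr w := fun e => H.not_cm h.ac (H.cm_pr rfl e)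

theorem ap_cj {t w : G} (h : AP z t w) (g : G) : AP z (g * t * g⁻¹) (g * w * g⁻¹) :=
  ⟨h.pt.conj g, h.pw.conj g, by rw [conj_mul, conj_mul, h.ac, H.mv, mul_assoc]⟩

theorem pt_pr {t s : G} (h : Pt t) (hs : Pt s) (c : s * t = t * s) : pr s = pr t := H.pr_eq.2 (H.pt_cm h hs c)

theorem ap_of {t s : G} (h : Pt t) (hs : Pt s) (c : s ∈ Nm t) (e : pr s ≠ pr t) : AP z t s :=
  ⟨h, hs, (H.nm.1 c).resolve_left fun c => e (H.pt_pr h hs c)⟩

theorem pr_ne_one {a : G} (h : a * a = z) : pr a ≠ 1 := fun e =>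
  H.z1 (by rw [← h, H.sq_pr (x := 1) (e.trans (map_one _).symm), mul_one])

theorem uiL {t w c : G} (h : AP z t w) (hc : c ∈ L t w) (c2 : c * c = 1) : c = 1 ∨ c = z := by
  rcases H.four h.pt c2 (mem_L.1 hc).1 with e | e | e | e
  · exact .inl e
  · exact .inr e
  all_goals exact (H.not_cm h.ac (H.cm_pr (x := c) (mem_L.1 hc).2.symm (by simp [e, H.prz]))).elim

theorem u1L {t w a b : G} (h : AP z t w) (ha : a ∈ L t w) (hb : b ∈ L t w) (a2 : a * a = z) (b2 : b * b = z)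
    (c : b * a = a * b) : pr b = pr a := by
  have := H.uiL h (mul_mem ha hb) (by rw [mul_assoc, r_cm c, b2, r_sq a2, H.z2])
  have e : b = a⁻¹ * (a * b) := by group
  rw [e, H.inv4 a2]
  rcases this with e | e <;> simp [e, H.prz]

theorem kL {t w c : G} (h : AP z t w) (hc : c ∈ L t w) (k : c ∈ K t) : c = 1 :=
  H.disj h.pt k (by have := H.swp h.pt h.ac k; rwa [← (mem_L.1 hc).2, mul_inv_cancel_right] at this)

/-- the third point attached to an element of order four -/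
theorem third {t w a : G} (h : AP z t w) (ha : a ∈ L t w) (a2 : a * a = z) :
    AP z t (t * w * a) ∧ AP z w (t * w * a) := by
  obtain ⟨a1, a3⟩ := mem_L.1 ha
  have e1 : t * w * a * t = z * (t * (t * w * a)) := by
    simp only [mul_assoc, a1, r_ac h.ac, H.mv t]
  have p : Pt (t * w * a) := ⟨by
    simp only [mul_assoc, r_cm a1, r_cm a3, r_ac h.ac, H.mv t, r_one h.pt.1, r_one h.pw.1, a2, H.z2],
    fun e => H.not_cm e1 (mem_center_iff.1 e t).symm⟩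
  exact ⟨⟨h.pt, p, e1⟩, h.pw, p, by simp only [mul_assoc, a3, r_ac h.ac, H.zz]⟩

theorem unthird {t w s : G} (h : AP z t w) (h1 : AP z t s) (h2 : AP z w s) :
    t * w * s ∈ L t w ∧ t * w * s * (t * w * s) = z ∧ pr (t * w * (t * w * s)) = pr s := by
  refine ⟨mem_L.2 ⟨?_, ?_⟩, ?_, H.pr_eq.2 (.inr ?_)⟩ <;>
  simp only [mul_assoc, h1.ac, h2.ac, r_ac h.ac, r_ac h1.ac, r_ac h2.ac, H.mv t, H.mv w, H.zz, r_one h.pt.1,
    r_one h.pw.1, r_one h1.pw.1, h1.pw.1, h.pw.1, h.pt.1, mul_one]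

theorem dec2 {t w g : G} (h : AP z t w) (h1 : g ∈ Nm t) (h2 : g ∈ Nm w) :
    ∃ d, (d = 1 ∨ d = t ∨ d = w ∨ d = t * w) ∧ g * d ∈ L t w := by
  rcases H.nm.1 h1 with a | a <;> rcases H.nm.1 h2 with b | b
  · exact ⟨1, .inl rfl, (mul_one g).symm ▸ mem_L.2 ⟨a, b⟩⟩
  · refine ⟨t, by simp, mem_L.2 ⟨by rw [a, mul_assoc, a], ?_⟩⟩
    simp only [mul_assoc, H.ac_symm h.ac, H.mv g, r_ac b, H.zz]
  · refine ⟨w, by simp, mem_L.2 ⟨?_, by rw [b, mul_assoc, b]⟩⟩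
    simp only [mul_assoc, h.ac, H.mv g, r_ac a, H.zz]
  · refine ⟨t * w, by simp, mem_L.2 ⟨?_, ?_⟩⟩
    · simp only [mul_assoc, h.ac, H.mv g, H.mv t, r_ac a, H.zz]
    · rw [mul_assoc, mul_assoc, r_ac (H.ac_symm h.ac), H.mv g, r_ac b, H.zz]

theorem mem_syl {P X : Subgroup G} (hP : SylIn 2 P X) {x : G} (hx : x ∈ X) (hz : z ∈ X) (hn : P ≤ Nm x) {n : ℕ}
    (x2 : x ^ 2 ^ n = 1) : x ∈ P := by
  refine hP.le_of_normalized (R := (zpowers (pr x)).comap pr) (IsPGroup.comap_of_ker_isPGroup ?_ _ (by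
    rw [pr_ker]; exact H.z2g)) ?_ ?_ (mem_zpowers _)
  · rintro ⟨_, k, rfl⟩
    exact ⟨n, Subtype.ext (by
      show ((pr x) ^ k) ^ 2 ^ n = 1
      rw [← zpow_natCast, ← zpow_mul, mul_comm, zpow_mul, zpow_natCast, ← map_pow, x2, map_one, one_zpow])⟩
  · rintro y ⟨k, hk⟩
    rcases H.pr_eq.1 (show pr y = pr (x ^ k) by rw [map_zpow]; exact hk.symm) with e | e <;> rw [e]
    exacts [zpow_mem hx k, mul_mem hz (zpow_mem hx k)]
  · refine le_normalizer_of_cj_le fun g hg => cj_le_iff_forall.2 ?_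
    rintro y ⟨k, hk⟩
    refine ⟨k, ?_⟩
    simp only [map_mul, map_inv] at hk ⊢
    rw [← hk, ← conj_zpow, mem_Nm'.1 (hn hg)]

variable [Finite G]

theorem conj_pt {s s' : G} (hs : Pt s) (hs' : Pt s') : ∃ g, g * s * g⁻¹ = s' := by
  obtain ⟨T, t, u, hT, pt, pu, ht, hu, hn, ut⟩ := H.exists_T hs
  have key : ∀ {s}, Pt s → ∃ g, g * s * g⁻¹ = t := fun {s} hs => by
    obtain ⟨g, hg⟩ := H.thom hT (U := T ⊓ centralizer {t}) inf_le_left (by
      refine relIndex_dvd_two_iff.2 ⟨u, hu, fun b hb => (hn b hb).symm.imp (fun e => ⟨mul_mem hb hu, ?_⟩)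
        fun e => ⟨hb, mem_centralizer_singleton_iff.2 e⟩⟩
      exact mem_centralizer_singleton_iff.2 (by simp only [mul_assoc, ut, H.mv b, r_ac e, H.zz])) hs.1
    rcases H.pt_cm pt (hs.conj g) (mem_centralizer_singleton_iff.1 hg.2) with e | e
    · exact ⟨g, e⟩
    · refine ⟨u * g, ?_⟩
      rw [show u * g * s * (u * g)⁻¹ = u * (g * s * g⁻¹) * u⁻¹ by group, e, H.mv, ut, H.zz, mul_inv_cancel_right]
  obtain ⟨g, hg⟩ := key hs
  obtain ⟨g', hg'⟩ := key hs'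
  exact ⟨g'⁻¹ * g, by rw [show g'⁻¹ * g * s * (g'⁻¹ * g)⁻¹ = g'⁻¹ * (g * s * g⁻¹) * g' by group, hg, ← hg']; group⟩

theorem syl_ge {s : G} (hs : Pt s) {U : Subgroup G} (hU : IsPGroup 2 U) (h : U ≤ Nm s) :
    ∃ T, SylIn 2 T ⊤ ∧ U ≤ T ∧ T ≤ Nm s := by
  obtain ⟨T, t, u, hT, pt, -, -, -, hn, -⟩ := H.exists_T hs
  obtain ⟨g, rfl⟩ := H.conj_pt pt hs
  obtain ⟨P, hP, h1⟩ := exists_sylIn_ge hU h
  exact ⟨P, hP.trans_of_sylIn le_top (hT.cj_of_mem (mem_top g))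
    (cj_le_iff_forall.2 fun x hx => Nm_cj (H.nm.2 (hn x hx)) g), h1, hP.le⟩

variable {t w : G} (h : AP z t w) {E : Subgroup G} (hE : SylIn 2 E (Nm t ⊓ Nm w))
include h hE

omit [Finite G] in
theorem mem_E : t ∈ E ∧ w ∈ E :=
  have hz : z ∈ Nm t ⊓ Nm w := ⟨Nm_of (H.zc t).symm, Nm_of (H.zc w).symm⟩
  ⟨H.mem_syl hE (n := 1) ⟨Nm_self t, Nm_symm (H.Nm_ac h.ac)⟩ hz (hE.le.trans inf_le_left) (by simp [sq, h.pt.1]),
    H.mem_syl hE (n := 1) ⟨H.Nm_ac h.ac, Nm_self w⟩ hz (hE.le.trans inf_le_right) (by simp [sq, h.pw.1])⟩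

theorem move : SylIn 2 E ⊤ ∨ ∃ α ∈ normalizer (E : Set G), α ∈ Nm t ∧ α ∉ Nm w ∧ ∃ n, α ^ 2 ^ n = 1 := by
  obtain ⟨T, hT, h1, h2⟩ := H.syl_ge h.pt hE.pgroup (hE.le.trans inf_le_left)
  refine h1.eq_or_lt.imp (fun e : E = T => e ▸ hT) fun h3 => ?_
  obtain ⟨α, ha, h4⟩ := SetLike.exists_of_lt (CL.lt_normalizer_inf_of_isNilpotent hT.pgroup.isNilpotent h3)
  refine ⟨α, ha.1, h2 ha.2, fun e => h4 ?_, pw hT.pgroup ha.2⟩
  rw [← hE.max (T ⊓ (Nm t ⊓ Nm w)) (hT.pgroup.to_le inf_le_left) (le_inf h1 hE.le) inf_le_right]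
  exact ⟨ha.2, h2 ha.2, e⟩

omit [Finite G] in
theorem np {a s : G}
    (uq : ∀ b ∈ E, b ∈ L t w → b * b = z → E ≤ Nm b → pr b = pr a) (ps : Pt s) (hs : s ∈ E) (hn : E ≤ Nm s) :
    pr s = pr t ∨ pr s = pr w ∨ pr s = pr (t * w * a) := by
  obtain ⟨ht, hw⟩ := H.mem_E h hE
  refine or_iff_not_imp_left.2 fun e1 => or_iff_not_imp_left.2 fun e2 => ?_
  obtain ⟨b1, b2, b3⟩ := H.unthird h (H.ap_of h.pt ps (Nm_symm (hn ht)) e1) (H.ap_of h.pw ps (Nm_symm (hn hw)) e2)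
  rw [← b3, map_mul, uq _ (mul_mem (mul_mem ht hw) hs) b1 b2 fun g hg =>
    Nm_mul (Nm_mul (hE.le hg).1 (hE.le hg).2) (hn hg), ← map_mul]

/-- the normaliser of `E` induces a 3-cycle on the three normal four-groups of `E` -/
theorem s3 {a : G} (haE : a ∈ E) (ha : a ∈ L t w) (a2 : a * a = z) (hn : E ≤ Nm a)
    (uq : ∀ b ∈ E, b ∈ L t w → b * b = z → E ≤ Nm b → pr b = pr a) :
    ∃ ρ ∈ normalizer (E : Set G), pr (ρ * t * ρ⁻¹) = pr w ∧ pr (ρ * w * ρ⁻¹) = pr (t * w * a) ∧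
      pr (ρ * (t * w * a) * ρ⁻¹) = pr t := by
  obtain ⟨ht, hw⟩ := H.mem_E h hE
  obtain ⟨h1, h2⟩ := H.third h ha a2
  have key : ∀ g ∈ normalizer (E : Set G), ∀ s, Pt s → s ∈ E → E ≤ Nm s → pr g * pr s * (pr g)⁻¹ = pr t ∨
      pr g * pr s * (pr g)⁻¹ = pr w ∨ pr g * pr s * (pr g)⁻¹ = pr (t * w * a) := fun g hg s ps hs hn => by
    have := H.np h hE uq (ps.conj g) ((mem_normalizer_iff.1 hg s).1 hs) fun y hy => by
      have := Nm_cj (hn ((mem_normalizer_iff''.1 hg y).1 hy)) g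
      simpa [mul_assoc] using this
    simpa only [map_mul (pr) (g * s), map_mul pr g s, map_inv] using this
  have k1 := fun g hg => key g hg t h.pt ht (hE.le.trans inf_le_left)
  have k2 := fun g hg => key g hg w h.pw hw (hE.le.trans inf_le_right)
  have k3 := fun g hg => key g hg _ h1.pw (mul_mem (mul_mem ht hw) haE) fun y hy =>
    Nm_mul (Nm_mul (hE.le hy).1 (hE.le hy).2) (hn hy)
  have n1 := H.ap_ne h
  have n2 := H.ap_ne h1
  have n3 := H.ap_ne h2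
  simp only [map_mul pr (_ * _) _⁻¹, map_mul pr _ t, map_mul pr _ w, map_mul pr _ (t * w * a), map_inv]
  generalize pr (t * w * a) = x3 at *
  have inj : ∀ {g x y : G ⧸ center G}, g * x * g⁻¹ = g * y * g⁻¹ → x = y := fun e => by simpa using e
  by_cases hS : SylIn 2 E ⊤
  · obtain ⟨g, hg⟩ := H.conj_pt h.pt h.pw
    obtain ⟨n, hn, e⟩ := ((hS.cj_of_mem (mem_top g)).of_le (K := Nm w) (cj_le_iff_forall.2 fun x hx =>
      hg ▸ Nm_cj (hE.le hx).1 g) le_top).exists_conj (hS.of_le (hE.le.trans inf_le_right) le_top)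
    rw [← cj_mul, ← mem_normalizer_iff_cj] at e
    have e1 : pr (n * g) * pr t * (pr (n * g))⁻¹ = pr w := by
      rw [← mem_Nm'.1 hn, ← hg]; simp only [map_mul, map_inv]; group
    generalize n * g = γ at e e1
    have e2 : pr γ * pr w * (pr γ)⁻¹ = x3 := by
      refine ((k2 γ e).resolve_left fun e2 => ?_).resolve_left fun e2 => n1 (inj (e1.trans e2.symm))
      obtain ⟨k, m, hm, ho⟩ := Nat.exists_eq_two_pow_mul_odd (orderOf_pos γ).ne'
      obtain ⟨j, rfl⟩ := hm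
      have g2 : γ ^ 2 ∈ Nm t := mem_Nm'.2 (by
        rw [sq, map_mul, show pr γ * pr γ * pr t * (pr γ * pr γ)⁻¹ = pr γ * (pr γ * pr t * (pr γ)⁻¹) * (pr γ)⁻¹ by
          group, e1, e2])
      have g3 : γ ^ (2 * j + 1) ∈ E := hS.le_of_normalizes (R := zpowers (γ ^ (2 * j + 1))) (IsPGroup.of_card (n := k)
        (by rw [Nat.card_zpowers, orderOf_pow_of_dvd (by omega) (ho ▸ dvd_mul_left _ _), ho, Nat.mul_div_cancel _
          (by omega)])) le_top (zpowers_le.2 (pow_mem e _)) (mem_zpowers _)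
      have g4 : γ ^ (2 * j + 1) ∈ Nm t := (hE.le g3).1
      rw [pow_succ, pow_mul, mul_mem_cancel_left (pow_mem g2 j)] at g4
      exact n1 ((mem_Nm'.1 g4).symm.trans e1)
    exact ⟨γ, e, e1, e2, ((k3 γ e).resolve_right fun e3 => e3.elim (fun e3 => n2 (inj (e1.trans e3.symm)))
      fun e3 => n3 (inj (e2.trans e3.symm)))⟩
  obtain ⟨α, ha, a1, a2, -⟩ := (H.move h hE).resolve_left hS
  obtain ⟨β, hb, b1, b2, -⟩ := (H.move (H.ap_symm h) (inf_comm (Nm t) _ ▸ hE)).resolve_left hS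
  rw [mem_Nm'] at a1 a2 b1 b2
  have a3 := ((k2 α ha).resolve_left fun e => n1 (inj (a1.trans e.symm))).resolve_left a2
  have a4 := ((k3 α ha).resolve_left fun e => n2 (inj (a1.trans e.symm))).resolve_right
    fun e => n3 (inj (a3.trans e.symm))
  have b3 := ((k1 β hb).resolve_left b2).resolve_left fun e => n1 (inj (e.trans b1.symm))
  have b4 := (k3 β hb).resolve_right fun e => e.elim (fun e => n3 (inj (b1.trans e.symm)))
    fun e => n2 (inj (b3.trans e.symm))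
  have cc : ∀ x, pr (α * β) * x * (pr (α * β))⁻¹ = pr α * (pr β * x * (pr β)⁻¹) * (pr α)⁻¹ := fun x => by
    rw [map_mul]; group
  exact ⟨α * β, mul_mem ha hb, by rw [cc, b3, a4], by rw [cc, b1, a3], by rw [cc, b4, a1]⟩

theorem rho {a b x : G} (haE : a ∈ E) (ha : a ∈ L t w) (a2 : a * a = z) (hn : E ≤ Nm a) (hxE : x ∈ E)
    (hx : x ∈ L t w) (x2 : pr (x * x) = pr a) (hbE : b ∈ E) (hb : b ∈ L t w) (ba : b * a = z * (a * b)) :
    ∃ ρ, pr (ρ * t * ρ⁻¹) = pr w ∧ pr (ρ * w * ρ⁻¹) = pr (t * w * a) ∧ pr (ρ * (t * w * a) * ρ⁻¹) = pr t ∧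
      ρ ∈ Nm (t * w * b) := by
  obtain ⟨ht, hw⟩ := H.mem_E h hE
  obtain ⟨h1, h2⟩ := H.third h ha a2
  have sq : ∀ c ∈ E, c ∈ L t w → c * a = z * (a * c) → c * c = z := fun c hc c1 ca =>
    (pw hE.pgroup hc).elim fun _ => H.sq_z h.pt (mem_L.1 c1).1 (mem_L.1 ha).1 a2 ca
  have iv : ∀ b ∈ E, b ∈ L t w → b * a = z * (a * b) → ∀ c ∈ E, c ∈ L t w → c * a = a * c → c * b = b * c⁻¹ :=
    fun b hbE hb ba c hc c1 ca => by
      have := (sq _ (mul_mem hbE hc) (mul_mem hb c1) (by rw [mul_assoc, ca, r_ac ba])).trans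
        (sq b hbE hb ba).symm
      rw [mul_assoc, mul_left_cancel_iff, ← mul_assoc] at this
      rw [eq_mul_inv_iff_mul_eq, this]
  have xa : x * a = a * x := H.cm_pr (by rw [mul_assoc]) x2.symm
  obtain ⟨ρ, hρ, r1, r2, r3⟩ := H.s3 h hE haE ha a2 hn fun c hc c1 c2 c3 => by
    refine (H.nm.1 (Nm_symm (c3 haE))).elim (H.u1L h ha c1 a2 c2) fun ca => (H.pr_ne_one a2 ?_).elim
    have e := mem_Nm'.1 (c3 hxE)
    rw [← map_inv, mul_assoc, ← map_mul, ← iv c hc c1 ca x hxE hx xa, map_mul, ← mul_assoc, ← map_mul, x2] at e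
    simpa using e
  set A := E ⊓ (L t w ⊓ centralizer {a})
  have mA : ∀ {c}, c ∈ A ↔ c ∈ E ∧ c ∈ L t w ∧ c * a = a * c := by
    simp only [A, mem_inf (p := E), mem_inf (p := L t w), mem_centralizer_singleton_iff, implies_true]
  have cj : ∀ {c y : G}, c * y = y * c → ρ * c * ρ⁻¹ * (ρ * y * ρ⁻¹) = ρ * y * ρ⁻¹ * (ρ * c * ρ⁻¹) := fun e => by
    rw [conj_mul, conj_mul, e]
  have cA : ∀ c ∈ A, ρ * c * ρ⁻¹ ∈ A := fun c hc => by
    obtain ⟨c1, c2, c3⟩ := mA.1 hc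
    obtain ⟨c4, c5⟩ := mem_L.1 c2
    have c6 : c * (t * w * a) = t * w * a * c := by simp only [mul_assoc, r_cm c4, r_cm c5, c3]
    have d1 := H.cm_pr (cj c4) r1.symm
    have d2 := H.cm_pr (cj c5) r2.symm
    have d3 := H.cm_pr (cj c6) r3.symm
    refine mA.2 ⟨(mem_normalizer_iff.1 hρ c).1 c1, mem_L.2 ⟨d3, d1⟩, ?_⟩
    generalize ρ * c * ρ⁻¹ = c' at *
    rwa [mul_assoc t, r_cm d3, r_cm d1, mul_assoc, mul_assoc, mul_left_cancel_iff, mul_left_cancel_iff] at d2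
  obtain ⟨y, hy, gen⟩ := H.cyc h.pt (A := A) (hE.pgroup.to_le inf_le_left) (fun y hy => (mem_L.1 (mA.1 hy).2.1).1)
    (mA.2 ⟨haE, ha, rfl⟩) a2 fun y hy => (mA.1 hy).2.2
  have gen' : ∀ c ∈ A, ∃ k : ℕ, y ^ k = c := fun c hc => (gen c hc).imp fun k hk =>
    inv_mul_eq_one.1 (H.kL h (mA.1 (mul_mem (inv_mem (pow_mem hy k)) hc)).2.1 hk)
  have b2 := sq b hbE hb ba
  obtain ⟨s1, s2⟩ := H.third h hb b2
  have s3 : AP z (t * w * a) (t * w * b) := ⟨h1.pw, s1.pw, by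
    simp only [mul_assoc, r_cm (mem_L.1 ha).1, r_cm (mem_L.1 ha).2, r_cm (mem_L.1 hb).1, r_cm (mem_L.1 hb).2, ba,
      H.mv t, H.mv w]⟩
  have apc : ∀ {u v : G}, AP z u (t * w * b) → Pt v → pr (ρ * u * ρ⁻¹) = pr v → AP z v (ρ * (t * w * b) * ρ⁻¹) :=
    fun hu hv e => ⟨hv, s1.pw.conj ρ, H.ac_pr (H.ap_cj hu ρ).ac e.symm⟩
  obtain ⟨u1, u2, u3⟩ := H.unthird h (apc s3 h.pt r3) (apc s1 h.pw r1)
  have u4 := (apc s2 h1.pw r2).ac
  have u5 : t * w * (ρ * (t * w * b) * ρ⁻¹) ∈ E := mul_mem (mul_mem ht hw)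
    ((mem_normalizer_iff.1 hρ _).1 (mul_mem (mul_mem ht hw) hbE))
  have u6 : t * w * (ρ * (t * w * b) * ρ⁻¹) * a = z * (a * (t * w * (ρ * (t * w * b) * ρ⁻¹))) := by
    have v1 := (apc s3 h.pt r3).ac
    have v2 := (apc s1 h.pw r1).ac
    generalize ρ * (t * w * b) * ρ⁻¹ = s at *
    simp only [mul_assoc, r_ac v1, r_ac v2, H.mv t, H.zz, r_cm (mem_L.1 ha).1, r_cm (mem_L.1 ha).2] at u4 ⊢
    rw [u4]
  generalize t * w * (ρ * (t * w * b) * ρ⁻¹) = b' at *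
  have c1 : b⁻¹ * b' ∈ A := mA.2 ⟨mul_mem (inv_mem hbE) u5, mul_mem (inv_mem hb) u1, by
    simp only [H.inv4 b2, mul_assoc, u6, H.mv b, H.mv a, r_ac ba, H.zz]⟩
  obtain ⟨m, hm⟩ := gen' _ c1
  obtain ⟨k, hk⟩ := gen' _ (cA y hy)
  obtain ⟨j, rfl⟩ : Odd k := by
    refine Nat.not_even_iff_odd.1 fun ⟨j, hj⟩ => ?_
    obtain ⟨n, hn⟩ := (hE.pgroup.to_le (inf_le_left : A ≤ E)).exists_orderOf_eq_pow ⟨y, hy⟩
    rw [orderOf_mk] at hn
    rcases n with _ | n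
    · obtain ⟨i, hi⟩ := gen' a (mA.2 ⟨haE, ha, rfl⟩)
      rw [orderOf_eq_one_iff.1 hn, one_pow] at hi
      exact H.z1 (by rw [← a2, ← hi, mul_one])
    have e : (ρ * y * ρ⁻¹) ^ 2 ^ n = 1 := by
      rw [← hk, hj, ← pow_mul, show (j + j) * 2 ^ n = 2 ^ (n + 1) * j by ring, pow_mul, ← hn, pow_orderOf_eq_one,
        one_pow]
    rw [conj_pow, conj_eq_one_iff, ← orderOf_dvd_iff_pow_eq_one, hn, Nat.pow_dvd_pow_iff_le_right one_lt_two] at e
    omega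
  have hd := mA.1 (pow_mem hy (m * (j + 1)))
  have hs : pr (ρ * (t * w * b) * ρ⁻¹) = pr (t * w * b) * pr y ^ m := by
    rw [← u3, ← map_pow, hm, ← map_mul]; congr 1; group
  have fx : y ^ (m * (j + 1)) * (ρ * ρ) ∈ Nm (t * w * b) := by
    have e1 : pr ρ * pr y * (pr ρ)⁻¹ = pr y ^ (2 * j + 1) := by rw [← map_pow, hk]; simp
    have e2 := congrArg pr (iv b hbE hb ba _ hd.1 hd.2.1 hd.2.2)
    have e3 := mem_Nm.1 (Nm_of (mem_L.1 hd.2.1).1)
    have e4 := mem_Nm.1 (Nm_of (mem_L.1 hd.2.1).2)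
    simp only [map_mul, map_inv, map_pow] at hs e2 e3 e4
    rw [mem_Nm']
    simp only [map_mul, map_pow]
    rw [show ∀ d s r : G ⧸ center G, d * (r * r) * s * (d * (r * r))⁻¹ = d * (r * (r * s * r⁻¹) * r⁻¹) * d⁻¹ from
      fun _ _ _ => by group, hs, ← conj_mul (b := pr ρ), hs, ← conj_pow, e1]
    simp only [mul_assoc, r_cm e3, r_cm e4]
    rw [← mul_assoc _ (pr b), e2]
    group
  have f1 := mem_Nm'.1 (Nm_of (mem_L.1 hd.2.1).1)
  have f2 := mem_Nm'.1 (Nm_of (mem_L.1 hd.2.1).2)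
  have f3 := mem_Nm'.1 (Nm_mul (Nm_mul (Nm_of (mem_L.1 hd.2.1).1) (Nm_of (mem_L.1 hd.2.1).2)) (Nm_of hd.2.2))
  generalize y ^ (m * (j + 1)) = d at *
  have cc : ∀ u, pr ((d * (ρ * ρ))⁻¹ * u * (d * (ρ * ρ))⁻¹⁻¹) =
      (pr ρ)⁻¹ * ((pr ρ)⁻¹ * ((pr d)⁻¹ * pr u * pr d) * pr ρ) * pr ρ := fun u => by
    simp only [map_mul, map_inv, mul_inv_rev, inv_inv, mul_assoc]
  have fl : ∀ {g u v : G ⧸ center G}, g * u * g⁻¹ = v → g⁻¹ * v * g = u := fun e => by rw [← e]; group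
  simp only [map_mul pr (_ * _) _⁻¹, map_mul pr ρ, map_inv] at r1 r2 r3
  exact ⟨_, by rw [cc, fl f1, fl r3, fl r2], by rw [cc, fl f2, fl r1, fl r3], by rw [cc, fl f3, fl r2, fl r1],
    inv_mem fx⟩

end H1

end CL.DV.B
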