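import Mathlib
import Cfsg.Agent.INV.DV.Lin
import Cfsg.Agent.PERM.FCEx
import Cfsg.Agent.SOLV.Supersolvable

/-!
Finite groups acting faithfully on a two-dimensional space over a division ring: abelian subgroups
and involutions.
-/

set_option autoImplicit false

namespace CL.DV

open Subgroup CL.FC Module

universe v

variable {G : Type v} [Group G]
variable {D : Type*} [DivisionRing D] {V : Type*} [AddCommGroup V] [Module D V] {ρ : G →* End D V}

theorem cube {E : Type*} [DivisionRing E] {a b : E} (hc : a * b = b * a) (ha : a ^ 3 = 1)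
    (hb : b ^ 3 = 1) : a = 1 ∨ b = 1 ∨ a * b = 1 ∨ a = b := by
  have k : ∀ c : E, c ^ 3 = 1 → c ≠ 1 → c * c + c + 1 = 0 := fun c h h1 =>
    (mul_eq_zero.1 (show (c - 1) * (c * c + c + 1) = 0 by
      rw [pow_three] at h; noncomm_ring; rw [h]; simp)).resolve_left (sub_ne_zero.2 h1)
  by_contra! h
  have e : (a - b) * (a - b * b) = a * a - a * (b * b + b + 1) + a + b ^ 3 := by
    rw [sub_mul, mul_sub, mul_sub, ← hc, pow_three]; noncomm_ring
  rw [k b hb h.2.1, hb, mul_zero, sub_zero, k a ha h.1] at e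
  refine h.2.2.1 ?_
  rw [sub_eq_zero.1 ((mul_eq_zero.1 e).resolve_left (sub_ne_zero.2 h.2.2.2)), ← hb, pow_three, mul_assoc]

theorem fx_conj (g y : G) (w : V) : w ∈ Fx ρ (g * y * g⁻¹) ↔ ρ g⁻¹ w ∈ Fx ρ y := by
  rw [mem_Fx, mem_Fx, app_mul, app_mul]
  exact ⟨fun e => by conv_rhs => rw [← e, app_inv], fun e => by rw [e, app_inv']⟩

theorem inv_Fx {L : Subgroup G} {y : G} (hL : ∀ g ∈ L, g * y = y * g) : Inv ρ L (Fx ρ y) :=
  fun g hg w hw => by rw [mem_Fx, ← app_mul, ← hL g hg, app_mul, mem_Fx.1 hw]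

/-- the two homomorphisms attached to a reducible group -/
def Two (G : Type v) [Group G] : Prop :=
  ∃ (Y Y' : Type v) (_ : Group Y) (_ : Group Y') (_ : Finite Y) (_ : Finite Y') (π : G →* Y) (π' : G →* Y'),
    Function.Surjective π ∧ Function.Surjective π' ∧ (∀ x, π x = 1 → π' x = 1 → x = 1) ∧
    IsFPF Y ∧ IsFPF Y' ∧
    (Group.IsSolvable Y ∨ Nonempty (Y ≃* Matrix.SpecialLinearGroup (Fin 2) (ZMod 5))) ∧
    (Group.IsSolvable Y' ∨ Nonempty (Y' ≃* Matrix.SpecialLinearGroup (Fin 2) (ZMod 5)))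

namespace Rep

variable (h : Rep ρ)
include h

theorem pt_of_fix {W : Submodule D V} (h2 : W ≠ ⊤) {u : V} (hu : u ∈ W) (u0 : u ≠ 0) {g : G}
    (e : ρ g u = u) : g ∈ Pt ρ W := fun w hw => by
  obtain ⟨d, rfl⟩ := h.span h2 hu u0 hw
  rw [map_smul, e]

theorem eq_of_mem {W W' : Submodule D V} (h1 : W ≠ ⊤) (h2 : W' ≠ ⊤) {u : V} (hu : u ∈ W) (hu' : u ∈ W')
    (u0 : u ≠ 0) : W = W' := by
  have k : ∀ {W W' : Submodule D V}, W ≠ ⊤ → u ∈ W → u ∈ W' → W ≤ W' := fun h1 hu hu' w hw => by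
    obtain ⟨d, rfl⟩ := h.span h1 hu u0 hw
    exact Submodule.smul_mem _ d hu'
  exact le_antisymm (k h1 hu hu') (k h2 hu' hu)

theorem compl_of_ne {W W' : Submodule D V} (h1 : W ≠ ⊥) (h2 : W ≠ ⊤) (h3 : W' ≠ ⊥) (h4 : W' ≠ ⊤)
    (hn : W ≠ W') : IsCompl W W' :=
  h.compl_of h1 h3 (Submodule.disjoint_def.2 fun _ hu hu' => by_contra fun u0 =>
    hn (h.eq_of_mem h2 h4 hu hu' u0))

theorem line_hom {L : Subgroup G} {W : Submodule D V} (h1 : W ≠ ⊥) (h2 : W ≠ ⊤) (hi : Inv ρ L W) :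
    ∃ (_ : DivisionRing (End D W)) (f : L →* End D W), (∀ x : L, f x = 1 ↔ (x : G) ∈ Pt ρ W) ∧
      ∀ x : L, ρ x = -1 → f x = -1 := by
  classical
  have : IsSimpleModule D W := isSimpleModule_iff_finrank_eq_one.2 (h.rk1 h1 h2)
  refine ⟨inferInstance, ⟨⟨fun x : L => (ρ x).restrict (hi x x.2), by ext w; simp⟩, fun a b => by
    ext w; simp⟩, fun x => ⟨fun e w hw => congrArg Subtype.val (LinearMap.congr_fun e ⟨w, hw⟩),
    fun e => LinearMap.ext fun w => Subtype.ext (e w w.2)⟩, fun x e => LinearMap.ext fun w =>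
      Subtype.ext (LinearMap.congr_fun e w)⟩

theorem unit {g : G} (hg : Fx ρ g = ⊥) : IsUnit (ρ g - 1) :=
  have := h.fd
  (LinearMap.isUnit_iff_ker_eq_bot _).2 hg

theorem neg_of {t : G} (ht : t ^ 2 = 1) (hg : Fx ρ t = ⊥) : ρ t = -1 := by
  have e : (ρ t - 1) * (ρ t + 1) = 0 := by
    have : ρ t * ρ t = 1 := by rw [← map_mul, ← sq, ht, map_one]
    noncomm_ring
    rw [this]; simp
  exact eq_neg_of_add_eq_zero_left ((h.unit hg).mul_right_eq_zero.1 e)

theorem center_of {t : G} (e : ρ t = -1) : t ∈ center G :=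
  mem_center_iff.2 fun g => h.inj (by rw [map_mul, map_mul, e, mul_neg, neg_mul, mul_one, one_mul])

theorem nf {t : G} (ht : t ^ 2 = 1) (hc : t ∉ center G) : Fx ρ t ≠ ⊥ := fun e =>
  hc (h.center_of (h.neg_of ht e))

/-- an element with a fixed vector stabilising two lines fixes one of them -/
theorem fx_eq {W W' : Submodule D V} (h1 : W ≠ ⊤) (h2 : W' ≠ ⊤) (hc : IsCompl W W') {y : G}
    (y1 : y ≠ 1) (hy : Fx ρ y ≠ ⊥) (i1 : ∀ w ∈ W, ρ y w ∈ W) (i2 : ∀ w ∈ W', ρ y w ∈ W') :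
    Fx ρ y = W ∨ Fx ρ y = W' := by
  obtain ⟨u, hu, u0⟩ := (Submodule.ne_bot_iff _).1 hy
  obtain ⟨a, ha, b, hb, rfl⟩ := Submodule.mem_sup.1 (hc.sup_eq_top ▸ Submodule.mem_top : u ∈ W ⊔ W')
  have e : ρ y a - a = b - ρ y b := by
    rw [sub_eq_sub_iff_add_eq_add, ← map_add, mem_Fx.1 hu, add_comm]
  have e1 : ρ y a - a = 0 := Submodule.disjoint_def.1 hc.disjoint _ (W.sub_mem (i1 a ha) ha)
    (e ▸ W'.sub_mem hb (i2 b hb))
  by_cases a0 : a = 0
  · exact Or.inr (h.eq_of_mem (h.Fx_ne_top y1) h2 hu (by simpa [a0] using hb) u0)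
  · exact Or.inl (h.eq_of_mem (h.Fx_ne_top y1) h1 (mem_Fx.2 (sub_eq_zero.1 e1)) ha a0)

theorem neg_of_irr (hi : Irr ρ) {z : G} (hz : z ^ 2 = 1) (z1 : z ≠ 1) (hc : z ∈ center G) : ρ z = -1 :=
  h.neg_of hz ((hi _ (inv_Fx fun g _ => mem_center_iff.1 hc g)).resolve_right (h.Fx_ne_top z1))

variable [CharZero D]

theorem compl_inv {z t : G} (hz : ρ z = -1) (ht : t ^ 2 = 1) (hc : t ∉ center G) :
    IsCompl (Fx ρ t) (Fx ρ (t * z)) := by
  have zc := h.center_of hz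
  have z2 : z ^ 2 = 1 := h.inj (by rw [map_pow, hz, map_one, neg_one_sq])
  refine h.compl_of (h.nf ht hc) (h.nf (by
    rw [(show Commute t z from mem_center_iff.1 zc t).mul_pow, ht, z2, one_mul]) fun e => hc
      ((mul_mem_cancel_right zc).1 e)) (Submodule.disjoint_def.2 fun u hu hu' => ?_)
  rw [mem_Fx, app_mul, hz, LinearMap.neg_apply, End.one_apply, map_neg, mem_Fx.1 hu,
    neg_eq_iff_add_eq_zero, ← two_smul D] at hu'
  exact (smul_eq_zero.1 hu').resolve_left two_ne_zero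

theorem inv_eq {a b : G} (ha : a ^ 2 = 1) (hb : b ^ 2 = 1) (hc : a * b = b * a) (e : Fx ρ a = Fx ρ b) :
    a = b := h.inj (LinearMap.ext fun v => by
  have m : ∀ {a : G}, a ^ 2 = 1 → v + ρ a v ∈ Fx ρ a := fun ha => by
    rw [mem_Fx, map_add, ← app_mul, ← sq, ha, map_one, End.one_apply, add_comm]
  have e1 := mem_Fx.1 (e ▸ m ha)
  have e2 := mem_Fx.1 (e.symm ▸ m hb)
  rw [map_add, ← app_mul] at e1 e2
  rw [← hc] at e1
  have : (2 : D) • (ρ a v - ρ b v) = 0 := by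
    rw [two_smul]
    rw [← sub_eq_zero] at e1 e2
    rw [← sub_eq_zero_of_eq (e2.trans e1.symm)]
    abel
  exact sub_eq_zero.1 ((smul_eq_zero.1 this).resolve_left two_ne_zero))

/-- every four-group contains `-1` -/
theorem four {t s : G} (ht : t ^ 2 = 1) (hs : s ^ 2 = 1) (hc : t * s = s * t) (t1 : t ≠ 1) (s1 : s ≠ 1)
    (ts : t ≠ s) : ρ t = -1 ∨ ρ s = -1 ∨ ρ (t * s) = -1 := by
  by_contra! k
  have t0 : Fx ρ t ≠ ⊥ := fun e => k.1 (h.neg_of ht e)
  have s0 : Fx ρ s ≠ ⊥ := fun e => k.2.1 (h.neg_of hs e)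
  have e2 : (t * s) ^ 2 = 1 := by rw [(show Commute t s from hc).mul_pow, ht, hs, one_mul]
  have c1 : t * s * t = t * (t * s) := by rw [mul_assoc, hc]
  have c2 : t * s * s = s * (t * s) := by rw [← mul_assoc, hc]
  rcases h.fx_eq (y := t * s) (h.Fx_ne_top t1) (h.Fx_ne_top s1) (h.compl_of_ne t0 (h.Fx_ne_top t1) s0
    (h.Fx_ne_top s1) fun e => ts (h.inv_eq ht hs hc e))
    (fun e => ts (by rw [eq_inv_of_mul_eq_one_left e, inv_eq_iff_mul_eq_one, ← sq, hs]))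
    (fun e => k.2.2 (h.neg_of e2 e))
    (inv_Fx (L := centralizer {t}) (fun g hg => (hg t rfl).symm) _ (mem_centralizer_singleton_iff.2 c1))
    (inv_Fx (L := centralizer {s}) (fun g hg => (hg s rfl).symm) _ (mem_centralizer_singleton_iff.2 c2))
    with e | e
  · exact s1 (by simpa using h.inv_eq e2 ht c1 e)
  · exact t1 (by simpa using h.inv_eq e2 hs c2 e)

variable [Finite G]

theorem exists_nf {A : Subgroup G} (hA : IsMulCommutative A) (hc : ¬ IsCyclic A) :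
    ∃ y ∈ A, y ≠ 1 ∧ Fx ρ y ≠ ⊥ := by
  by_contra! k
  letI : Module ℚ V := Module.compHom V (algebraMap ℚ D)
  have : IsScalarTower ℚ D V := IsScalarTower.of_compHom ℚ D V
  have : Nontrivial V := Module.nontrivial_of_finrank_pos (R := D) (h.rk ▸ two_pos)
  exact hc ((isFPF_of_algebra (K := ℚ) (ρ.comp A.subtype) fun g hg =>
    h.unit (k g g.2 fun e => hg (Subtype.ext e))).isCyclic_of_comm hA.is_comm.comm)

/-- a noncyclic abelian normal subgroup gives an invariant line or a subgroup of index two -/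
theorem ab (hG : ∀ H : Subgroup G, (∀ a b, a * b ∈ H ↔ (a ∈ H ↔ b ∈ H)) → H = ⊤) {A : Subgroup G}
    [hn : A.Normal] (hA : IsMulCommutative A) (hc : ¬ IsCyclic A) : ¬ Irr ρ := fun hi => by
  obtain ⟨y, hy, y1, y0⟩ := h.exists_nf hA hc
  have cm : ∀ a ∈ A, ∀ b ∈ A, a * b = b * a := fun a ha b hb =>
    congrArg Subtype.val (hA.is_comm.comm ⟨a, ha⟩ ⟨b, hb⟩)
  have c1 : ∀ g : G, g * y * g⁻¹ ≠ 1 := fun g => by simpa using y1
  have c0 : ∀ g : G, Fx ρ (g * y * g⁻¹) ≠ ⊥ := fun g => by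
    obtain ⟨u, hu, u0⟩ := (Submodule.ne_bot_iff _).1 y0
    exact (Submodule.ne_bot_iff _).2 ⟨ρ g u, (fx_conj g y _).2 (by rwa [app_inv]), fun e =>
      u0 (by rw [← app_inv (ρ := ρ) g u, e, map_zero])⟩
  have tr : ∀ g a b : G, Fx ρ (a * y * a⁻¹) = Fx ρ (b * y * b⁻¹) →
      Fx ρ (g * a * y * (g * a)⁻¹) = Fx ρ (g * b * y * (g * b)⁻¹) := fun g a b e => by
    ext w
    rw [fx_conj, fx_conj, mul_inv_rev, mul_inv_rev, app_mul, app_mul, ← fx_conj, ← fx_conj b, e]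
  let H : Subgroup G :=
    { carrier := {g | Fx ρ (g * y * g⁻¹) = Fx ρ (1 * y * 1⁻¹)}
      one_mem' := rfl
      mul_mem' := fun {a b} ha hb => (tr a b 1 hb).trans (by simpa using ha)
      inv_mem' := fun {a} ha => by simpa using (tr a⁻¹ a 1 ha).symm }
  have e := hG H fun a b => by
    by_cases ha : a ∈ H
    · simp [ha, H.mul_mem_cancel_left ha]
    by_cases hb : b ∈ H
    · simp [hb, H.mul_mem_cancel_right hb]
    simp only [ha, hb, iff_true]
    have := (h.fx_eq (h.Fx_ne_top (c1 1)) (h.Fx_ne_top (c1 b)) (h.compl_of_ne (c0 1) (h.Fx_ne_top (c1 1))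
      (c0 b) (h.Fx_ne_top (c1 b)) (Ne.symm hb)) (c1 a⁻¹) (c0 a⁻¹)
      (inv_Fx (L := A) (fun g hg => cm g hg _ (hn.conj_mem y hy 1)) _ (hn.conj_mem y hy _))
      (inv_Fx (L := A) (fun g hg => cm g hg _ (hn.conj_mem y hy b)) _ (hn.conj_mem y hy _))).resolve_left
      fun e => ha ((inv_mem_iff (H := H)).1 e)
    exact (tr a _ _ this).symm.trans (by rw [mul_inv_cancel])
  refine (hi (Fx ρ y) fun g _ w hw => ?_).elim y0 (h.Fx_ne_top y1)
  have : Fx ρ (g * y * g⁻¹) = Fx ρ (1 * y * 1⁻¹) := (e ▸ mem_top g : g ∈ H)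
  rw [one_mul, inv_one, mul_one] at this
  rwa [← this, fx_conj, app_inv]

theorem two (hi : ¬ Irr ρ) : Two G := by
  obtain ⟨W, hW, h1, h2⟩ : ∃ W, Inv ρ ⊤ W ∧ W ≠ ⊥ ∧ W ≠ ⊤ := by
    by_contra! k
    exact hi fun W hW => or_iff_not_imp_left.2 (k W hW)
  obtain ⟨W', hc, hW'⟩ := h.exists_compl h1 h2 hW
  obtain ⟨Y, _, _, π, s, k, f, o⟩ := h.fq h1 h2 hW
  obtain ⟨Y', _, _, π', s', k', f', o'⟩ := h.fq (W := W') (fun e => h2 (by simpa [e] using hc.sup_eq_top))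
    (fun e => h1 (by simpa [e] using hc.inf_eq_bot)) hW'
  exact ⟨Y, Y', _, _, ‹_›, ‹_›, π.comp (topEquiv (G := G)).symm.toMonoidHom,
    π'.comp (topEquiv (G := G)).symm.toMonoidHom,
    s.comp (topEquiv (G := G)).symm.surjective, s'.comp (topEquiv (G := G)).symm.surjective,
    fun x a b => mem_bot.1 (h.pt_inf hc ▸ ⟨(k ⟨x, trivial⟩).1 a, (k' ⟨x, trivial⟩).1 b⟩), f, f', o, o'⟩

theorem odd_comm {p : ℕ} (hp : p.Prime) (p2 : p ≠ 2) (P : Subgroup G) (hP : IsPGroup p P) :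
    IsMulCommutative P := by
  have := Fact.mk hp
  rcases CL.PCyc.isCyclic_or_normal_elemAb_or_isDQS hP with k | ⟨E, hn, hE, hc⟩ | k
  · exact k.isMulCommutative
  · obtain ⟨Y, Y', _, _, _, _, π, π', s, s', k, f, f', -⟩ := (h.comp P.subtype P.subtype_injective).two
      ((h.comp P.subtype P.subtype_injective).ab (fun H hH => eq_top_iff.2 fun a _ => by
        obtain ⟨n, e⟩ := hP a
        obtain ⟨k, hk⟩ := (hp.odd_of_ne_two p2).pow (n := n)
        have : a * a ∈ H := (hH a a).2 Iff.rfl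
        rw [hk, pow_succ, pow_mul, mul_eq_one_iff_eq_inv] at e
        exact (inv_mem_iff (H := H)).1 (e ▸ H.pow_mem (sq a ▸ this) k)) hE.1
        (CL.PCyc.not_isCyclic_of_elemAb hp hE (by rw [hc]; nlinarith [hp.two_le])))
    have cm : ∀ {Y : Type v} [Group Y] [Finite Y] (π : P →* Y), Function.Surjective π → IsFPF Y →
        ∀ a b, π (a * b * (b * a)⁻¹) = 1 := fun π s f a b => by
      have := (f.isCyclic_of_ne_two p2 ((hP.of_surjective π s).to_subgroup ⊤)).isMulCommutative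
      rw [map_mul, map_inv, mul_inv_eq_one, map_mul, map_mul]
      exact congrArg Subtype.val (this.is_comm.comm ⟨π a, trivial⟩ ⟨π b, trivial⟩)
    exact ⟨⟨fun a b => mul_inv_eq_one.1 (k _ (cm π s f a b) (cm π' s' f' a b))⟩⟩
  · exact absurd k.1 p2

theorem cyclic_of_irr (hi : Irr ρ) (hG : commutator G = ⊤) (A : Subgroup G) [A.Normal]
    (hA : IsMulCommutative A) : IsCyclic A ∧ A ≤ center G := by
  have hc : IsCyclic A := by_contra fun hc => h.ab (fun H hH => top_le_iff.1 (hG ▸ commutator_le.2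
    fun a _ b _ => by
      rw [commutatorElement_def, hH, hH, hH, inv_mem_iff, inv_mem_iff]
      by_cases ha : a ∈ H <;> simp [ha])) hA hc hi
  refine ⟨hc, fun a ha => mem_center_iff.2 fun g => ?_⟩
  exact (CL.commutator_le_centralizer_of_cyclic_normal A (hG ▸ mem_top g) a ha).symm

end Rep

end CL.DV
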