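import Mathlib
import Cfsg.Agent.INV.DV.Grp
import Cfsg.Agent.KSG.InvRkNC
import Cfsg.Agent.KSG.KInv.Small

/-!
Finite groups acting faithfully on a two-dimensional space over a division ring: a noncentral normal
`2`-subgroup gives the quotient `A₅`.
-/

set_option autoImplicit false

namespace CL.DV

open Subgroup CL.FC Module
open scoped commutatorElement

universe v

variable {G : Type v} [Group G] [Finite G]

theorem a5_of (hG : commutator G = ⊤) {x : G} (xc : x ∉ center G)
    (h6 : ∀ e : Fin 6 → G, (∀ i, ∃ g, e i = g * x * g⁻¹) → ∃ i j, i ≠ j ∧ (e i)⁻¹ * e j ∈ center G) :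
    ∃ θ : G →* alternatingGroup (Fin 5), Function.Surjective θ := by
  classical
  let π := QuotientGroup.mk' (center G)
  let Ω := MulAction.orbit (ConjAct (G ⧸ center G)) (π x)
  have := Fintype.ofFinite Ω
  have h5 : Fintype.card Ω ≤ Fintype.card (Fin 5) := not_lt.1 fun k => by
    obtain ⟨ι⟩ := Function.Embedding.nonempty_of_card_le (α := Fin 6) (β := Ω) (by simp at k ⊢; omega)
    have : ∀ i, ∃ g : G, (ι i).1 = π (g * x * g⁻¹) := fun i => by
      obtain ⟨c, e⟩ := (ι i).2
      obtain ⟨g, hg⟩ := QuotientGroup.mk'_surjective (center G) (ConjAct.ofConjAct c)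
      exact ⟨g, by rw [← e, map_mul, map_mul, map_inv, hg]; rfl⟩
    choose g hg using this
    obtain ⟨i, j, hij, e⟩ := h6 _ fun i => ⟨g i, rfl⟩
    exact hij (ι.injective (Subtype.ext ((hg i).trans ((QuotientGroup.eq.2 e).trans (hg j).symm))))
  obtain ⟨ι⟩ := Function.Embedding.nonempty_of_card_le h5
  let φ : G →* Equiv.Perm (Fin 5) := (Equiv.Perm.viaEmbeddingHom ι).comp
    ((MulAction.toPermHom (ConjAct (G ⧸ center G)) Ω).comp (ConjAct.toConjAct.toMonoidHom.comp π))
  let θ := φ.codRestrict (alternatingGroup (Fin 5)) fun g =>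
    Abelianization.commutator_subset_ker (Equiv.Perm.sign.comp φ) (hG ▸ mem_top g)
  refine ⟨θ, MonoidHom.range_eq_top.1 (eq_top_of_le_card _ (le_trans (by
    rw [nat_card_alternatingGroup]; simp [Nat.factorial]) (CL.KI.sixty_le (by
      rw [θ.range_eq_map, ← map_commutator, ← commutator_def, hG]) fun e => xc ?_)))⟩
  have : Group.IsPerfect G := ⟨hG⟩
  have k : π x ∈ center (G ⧸ center G) := mem_center_iff.2 fun q => by
    obtain ⟨g, rfl⟩ := QuotientGroup.mk'_surjective (center G) q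
    have e0 : θ g ∈ θ.range := ⟨g, rfl⟩
    rw [e, mem_bot] at e0
    have e1 : φ g = 1 := congrArg Subtype.val e0
    have e3 : MulAction.toPermHom (ConjAct (G ⧸ center G)) Ω (ConjAct.toConjAct (π g)) = 1 :=
      Equiv.Perm.viaEmbeddingHom_injective ι (e1.trans (map_one _).symm)
    have e2 := congrArg Subtype.val (Equiv.congr_fun e3 ⟨π x, MulAction.mem_orbit_self _⟩)
    exact mul_inv_eq_iff_eq_mul.1 e2
  rw [Group.IsPerfect.center_quotient_center_eq_bot] at k
  exact (QuotientGroup.eq_one_iff x).1 k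

omit [Finite G] in
theorem four_sq {m ε a b c d : G} (hm : ∀ g, g * m = m * g) (m2 : m * m = 1) (he : ∀ g, g * ε = ε * g)
    (e2 : ε * ε = 1) (ha : a * a = ε) (hb : b * b = ε) (hc : c * c = ε) (hd : d * d = ε)
    (ab : b * a = m * (a * b)) (ac : c * a = m * (a * c)) (ad : d * a = m * (a * d))
    (bc : c * b = m * (b * c)) (bd : d * b = m * (b * d)) (cd : d * c = m * (c * d)) :
    a * b * c * d * (a * b * c * d) = 1 := by
  have t : ∀ {a b : G}, b * a = m * (a * b) → ∀ g, b * (a * g) = m * (a * (b * g)) := fun h g => by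
    rw [← mul_assoc, h]; simp only [mul_assoc]
  have s : ∀ {a : G}, a * a = ε → ∀ g, a * (a * g) = ε * g := fun h g => by rw [← mul_assoc, h]
  have tm : ∀ a g : G, a * (m * g) = m * (a * g) := fun a g => by rw [← mul_assoc, hm, mul_assoc]
  have te : ∀ a g : G, a * (ε * g) = ε * (a * g) := fun a g => by rw [← mul_assoc, he, mul_assoc]
  have mm : ∀ g, m * (m * g) = g := fun g => by rw [← mul_assoc, m2, one_mul]
  have ee : ∀ g, ε * (ε * g) = g := fun g => by rw [← mul_assoc, e2, one_mul]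
  simp only [mul_assoc]
  rw [t ad, tm c, t ac, mm, t ab, tm a, s ha, t bd, tm c, t bc, mm, s hb, t cd, hd, tm c, s hc, e2, mul_one,
    ee, m2]

omit [Finite G] in
theorem pass4 {m a b c d e : G} (hm : ∀ g, g * m = m * g) (m2 : m * m = 1) (ea : e * a = m * (a * e))
    (eb : e * b = m * (b * e)) (ec : e * c = m * (c * e)) (ed : e * d = m * (d * e)) :
    e * (a * b * c * d) = a * b * c * d * e := by
  have t : ∀ {a b : G}, b * a = m * (a * b) → ∀ g, b * (a * g) = m * (a * (b * g)) := fun h g => by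
    rw [← mul_assoc, h]; simp only [mul_assoc]
  have tm : ∀ a g : G, a * (m * g) = m * (a * g) := fun a g => by rw [← mul_assoc, hm, mul_assoc]
  have mm : ∀ g, m * (m * g) = g := fun g => by rw [← mul_assoc, m2, one_mul]
  simp only [mul_assoc]
  rw [t ea, t eb, tm a, mm, t ec, ed, tm c, mm]

variable {D : Type*} [DivisionRing D] {V : Type*} [AddCommGroup V] [Module D V] {ρ : G →* End D V}

theorem Rep.clique [CharZero D] (h : Rep ρ) (hi : Irr ρ) (hG : commutator G = ⊤) {N : Subgroup G}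
    [hn : N.Normal] (hN : IsPGroup 2 N) (hc : ¬ N ≤ center G) :
    ∃ θ : G →* alternatingGroup (Fin 5), Function.Surjective θ := by
  obtain ⟨P, ⟨pn, pN, pc⟩, hmin⟩ := WellFounded.has_min (wellFounded_lt (α := Subgroup G))
    {P | P.Normal ∧ P ≤ N ∧ ¬ P ≤ center G} ⟨N, hn, le_rfl, hc⟩
  have hP : IsPGroup 2 P := hN.to_le pN
  have c2 : ∀ a ∈ P, ∀ b ∈ P, ⁅a, b⁆ ∈ center G := fun a ha b hb => by
    have : ⁅P, P⁆ ≤ center G := by_contra fun k => hmin _
      ⟨inferInstance, (commutator_le_left _ _).trans pN, k⟩ ((commutator_le_left _ _).lt_of_ne fun e =>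
        pc (by
          have := hP.isNilpotent
          rw [CL.KI.eq_bot_of_perfect_of_solvable e inferInstance]; exact bot_le))
    exact this (commutator_mem_commutator ha hb)
  have sq2 : ∀ a ∈ P, a * a ∈ center G := by
    let M : Subgroup G :=
      { carrier := {a | a ∈ P ∧ a * a ∈ center G}
        one_mem' := ⟨P.one_mem, by simp⟩
        mul_mem' := fun {a b} ha hb => ⟨P.mul_mem ha.1 hb.1, by
          have := mul_mem (mul_mem (c2 b hb.1 a ha.1) ha.2) hb.2
          rwa [← mem_center_iff.1 (c2 b hb.1 a ha.1), show a * a * ⁅b, a⁆ * (b * b) =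
            a * (a * ⁅b, a⁆) * (b * b) by group, mem_center_iff.1 (c2 b hb.1 a ha.1),
            show a * (⁅b, a⁆ * a) * (b * b) = a * b * (a * b) by simp [commutatorElement_def, mul_assoc]]
            at this⟩
        inv_mem' := fun {a} ha => ⟨P.inv_mem ha.1, by simpa using inv_mem ha.2⟩ }
    have mn : M.Normal := ⟨fun a ha g => ⟨pn.conj_mem a ha.1 g, by
      simpa [mul_assoc] using (inferInstance : (center G).Normal).conj_mem _ ha.2 g⟩⟩
    have e : M = P := by_contra fun e => hmin M ⟨mn, fun _ ha => pN ha.1, fun k => pc fun a ha => by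
      obtain ⟨n, hn⟩ := hP ⟨a, ha⟩
      have key : ∀ n, a ^ 2 ^ n ∈ center G → a ∈ center G := fun n => by
        induction n with
        | zero => simp
        | succ n ih => exact fun e => ih (k ⟨P.pow_mem ha _, by rwa [← sq, ← pow_mul, ← pow_succ]⟩)
      exact key n (by rw [show a ^ 2 ^ n = 1 from congrArg Subtype.val hn]; exact one_mem _)⟩
      (lt_of_le_of_ne (fun _ ha => ha.1) e)
    exact fun a ha => (e ▸ ha : a ∈ M).2
  have ab : ∀ a b : G, a * b = ⁅a, b⁆ * (b * a) := fun a b => by simp [commutatorElement_def, mul_assoc]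
  have cs : ∀ a ∈ P, ∀ b ∈ P, ⁅a, b⁆ ^ 2 = 1 := fun a ha b hb => by
    have e := mem_center_iff.1 (c2 a ha b hb)
    have : ⁅a, b⁆ ^ 2 * (b * (a * a)) = 1 * (b * (a * a)) := by
      rw [one_mul]
      conv_rhs => rw [mem_center_iff.1 (sq2 a ha) b, mul_assoc, ab a b, ← mul_assoc, e, mul_assoc, ← mul_assoc a,
        ab a b]
      simp only [sq, mul_assoc]
    exact mul_right_cancel this
  obtain ⟨a, ha, b, hb, m1⟩ : ∃ a ∈ P, ∃ b ∈ P, ⁅a, b⁆ ≠ 1 := by
    by_contra! k
    exact pc (h.cyclic_of_irr hi hG P ⟨⟨fun a b => Subtype.ext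
      (commutatorElement_eq_one_iff_mul_comm.1 (k a a.2 b b.2))⟩⟩).2
  obtain ⟨m, hm⟩ : ∃ m, m = ⁅a, b⁆ := ⟨_, rfl⟩
  have mc : m ∈ center G := hm ▸ c2 a ha b hb
  have m2 : m ^ 2 = 1 := hm ▸ cs a ha b hb
  rw [← hm] at m1
  have mm : m * m = 1 := sq m ▸ m2
  have mr := h.neg_of_irr hi m2 m1 mc
  have zz : ∀ z ∈ center G, z ^ 2 = 1 → z = 1 ∨ z = m := fun z hz z2 => or_iff_not_imp_left.2 fun z1 =>
    h.inj ((h.neg_of_irr hi z2 z1 hz).trans mr.symm)
  have an : ∀ a ∈ P, ∀ b ∈ P, a * b = b * a ∨ a * b = m * (b * a) := fun a ha b hb =>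
    (zz _ (c2 a ha b hb) (cs a ha b hb)).imp commutatorElement_eq_one_iff_mul_comm.1 fun e => by
      rw [← e]; exact ab a b
  have nc : ∀ {a b : G}, a * b = m * (b * a) → a ∉ center G := fun {a b} e k =>
    m1 (by rw [mem_center_iff.1 k b] at e; simpa using e)
  obtain ⟨x, hx, xc, k⟩ : ∃ x ∈ P, x ∉ center G ∧
      (x * x = 1 ∨ x * x = m ∧ ∀ y ∈ P, y * y = 1 → y ∈ center G) := by
    by_cases k : ∃ y ∈ P, y * y = 1 ∧ y ∉ center G
    · obtain ⟨y, hy, a, b⟩ := k
      exact ⟨y, hy, b, Or.inl a⟩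
    push Not at k
    have key : ∀ a ∈ P, ∀ b ∈ P, a * b = m * (b * a) → a * a ∈ zpowers (b * b) → ∃ x ∈ P, x ∉ center G ∧
        (x * x = 1 ∨ x * x = m ∧ ∀ y ∈ P, y * y = 1 → y ∈ center G) := fun a ha b hb e ⟨n, hn⟩ => by
      have hb' := P.zpow_mem hb (-n)
      have e1 : a * b ^ (-n) * b = m * (b * (a * b ^ (-n))) := by
        rw [mul_assoc, (Commute.zpow_left (Commute.refl b) _).eq, ← mul_assoc, e]; simp only [mul_assoc]
      have e2 : a * a * (b ^ (-n) * b ^ (-n)) = 1 := by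
        rw [← (Commute.refl b).mul_zpow, ← hn, ← zpow_add, add_neg_cancel, zpow_zero]
      refine ⟨_, P.mul_mem ha hb', nc e1, Or.inr ⟨?_, k⟩⟩
      rcases an _ hb' a ha with e3 | e3
      · exact absurd (k _ (P.mul_mem ha hb') (by
          rw [mul_assoc, ← mul_assoc _ a, e3, ← e2]; simp only [mul_assoc])) (nc e1)
      · rw [mul_assoc, ← mul_assoc _ a, e3, ← mul_assoc, ← mul_assoc, mem_center_iff.1 mc a]
        simpa only [mul_assoc, mul_one] using congrArg (m * ·) e2
    have e : a * b = m * (b * a) := hm ▸ ab a b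
    have := Fact.mk Nat.prime_two
    have := (h.cyclic_of_irr hi hG (P ⊓ center G) ⟨⟨fun a b => Subtype.ext
      (mem_center_iff.1 b.2.2 a)⟩⟩).1
    rcases CL.InvRk.mem_zpowers_or (hP.to_inf_left (K := center G)) this
      ⟨P.mul_mem ha ha, sq2 a ha⟩ ⟨P.mul_mem hb hb, sq2 b hb⟩ with k | k
    · exact key a ha b hb e k
    · exact key b hb a ha (by rw [e, ← mul_assoc, mm, one_mul]) k
  have xe := sq2 x hx
  have inv : ∀ t s : G, t * t = 1 → s * s = 1 → t * s = s * t → t ∉ center G → s ∉ center G →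
      t⁻¹ * s ∈ center G := fun t s ht hs e tc sc => by
    by_cases ts : t = s
    · simp [ts]
    rw [inv_eq_of_mul_eq_one_left ht]
    exact h.center_of (((h.four (sq t ▸ ht) (sq s ▸ hs) e (fun e => tc (e ▸ one_mem _))
      (fun e => sc (e ▸ one_mem _)) ts).resolve_left fun e => tc (h.center_of e)).resolve_left
        fun e => sc (h.center_of e))
  refine a5_of hG xc fun e he => by_contra fun hne => ?_
  push Not at hne
  have eP : ∀ i, e i ∈ P := fun i => by obtain ⟨g, q⟩ := he i; exact q ▸ pn.conj_mem x hx g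
  have ec : ∀ i, e i ∉ center G := fun i k => by
    obtain ⟨g, q⟩ := he i
    rw [q] at k
    exact xc (by simpa [← mul_assoc] using (inferInstance : (center G).Normal).conj_mem _ k g⁻¹)
  have e2 : ∀ i, e i * e i = x * x := fun i => by
    obtain ⟨g, q⟩ := he i
    rw [q, conj_mul, mem_center_iff.1 xe g, mul_inv_cancel_right]
  have ea : ∀ i j, i ≠ j → e i * e j = m * (e j * e i) := fun i j ij =>
    (an _ (eP i) _ (eP j)).resolve_left fun q => hne i j ij (by
      rcases k with k | k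
      · exact inv _ _ ((e2 i).trans k) ((e2 j).trans k) q (ec i) (ec j)
      · refine k.2 _ (P.mul_mem (P.inv_mem (eP i)) (eP j)) ?_
        rw [← sq, (show Commute (e i) (e j) from q).inv_left.mul_pow, inv_pow, sq, sq, e2, e2,
          inv_mul_cancel])
  have mc' := mem_center_iff.1 mc
  have w2 := four_sq mc' mm (mem_center_iff.1 xe) (by rcases k with k | k <;> simp [k, mm]) (e2 0) (e2 1)
    (e2 2) (e2 3) (ea 1 0 (by decide)) (ea 2 0 (by decide)) (ea 3 0 (by decide)) (ea 2 1 (by decide))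
    (ea 3 1 (by decide)) (ea 3 2 (by decide))
  have wc : e 0 * e 1 * e 2 * e 3 ∉ center G := nc (b := e 0) (by
    have t : ∀ {a b : G}, b * a = m * (a * b) → ∀ g, b * (a * g) = m * (a * (b * g)) := fun h g => by
      rw [← mul_assoc, h]; simp only [mul_assoc]
    have tm : ∀ a g : G, a * (m * g) = m * (a * g) := fun a g => by rw [← mul_assoc, mc', mul_assoc]
    simp only [mul_assoc]
    rw [ea 3 0 (by decide), tm, t (ea 2 0 (by decide)), ← mul_assoc m, mm, one_mul, t (ea 1 0 (by decide)),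
      tm])
  rcases k with k | k
  · have p : ∀ i, i ≠ 0 → i ≠ 1 → i ≠ 2 → i ≠ 3 → (e 0 * e 1 * e 2 * e 3)⁻¹ * e i ∈ center G :=
      fun i a b c d => inv _ _ w2 ((e2 i).trans k) (pass4 mc' mm (ea i 0 a) (ea i 1 b) (ea i 2 c)
        (ea i 3 d)).symm wc (ec i)
    exact hne 4 5 (by decide) (by
      simpa [mul_assoc] using mul_mem (inv_mem (p 4 (by decide) (by decide) (by decide) (by decide)))
        (p 5 (by decide) (by decide) (by decide) (by decide)))
  · exact wc (k.2 _ (P.mul_mem (P.mul_mem (P.mul_mem (eP 0) (eP 1)) (eP 2)) (eP 3)) w2)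

end CL.DV
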